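import Cfsg.Agent.H11.SimDSpec
import Cfsg.Agent.Base

/-! # S3694, chapter D, step D2a. -/

set_option autoImplicit false

namespace H45.SimDD2a

open Subgroup Cfsg H98 Matrix H0.Sim H11.SimD

theorem jobD_D2a : JobD2a := by
  intro hf ue n F _ _ q W₁ W₂ X hc hp h12 hX
  obtain ⟨a1, -, sy, lin, tr, ⟨c, c0, cq⟩, -, -, sep⟩ := hf n F q hc
  have zq : (0 : F) ^ q = 0 := by
    have := a1 0 0
    rw [add_zero] at this
    exact left_eq_add.1 this
  have z1 : ∀ z : Fin n → F, hermForm n F q 0 z = 0 := fun z => by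
    have := (lin 0 0 0 z).2.2.1
    rwa [zero_smul, zero_mul] at this
  have z2 : ∀ z : Fin n → F, hermForm n F q z 0 = 0 := fun z => by rw [sy, z1, zq]
  have key : ∀ w ∈ W₁, ∀ (y : Fin n → F) (μ : F), hermForm n F q y w = 0 →
      μ + μ ^ q = hermForm n F q y y → ∀ x ∈ X,
      hermForm n F q x y • w - hermForm n F q x w • y - (μ * hermForm n F q x w) • w ∈ X := by
    intro w hw y μ h1 h2 x hx
    obtain ⟨s, hs, e⟩ := ue n F q hc w y μ ((hp w).1 (h12 hw) w hw) h1 h2
    have k : ∀ W : Submodule F (Fin n → F), W₁ ≤ W → W ≤ W₂ → Sb s W := fun W k1 k2 v hv => by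
      rw [e, (hp v).1 (k2 hv) w hw, zero_smul, mul_zero, zero_smul, sub_zero, sub_zero]
      exact W.add_mem hv (W.smul_mem _ (k1 hw))
    have := X.sub_mem (hX s hs (k W₁ le_rfl h12) (k W₂ h12 le_rfl) x hx) hx
    rw [e] at this
    convert this using 1
    abel
  have key' : ∀ w ∈ W₁, ∀ y : Fin n → F, hermForm n F q y w = 0 → ∀ x ∈ X, ∃ μ : F,
      hermForm n F q x y • w - hermForm n F q x w • y - (μ * hermForm n F q x w) • w ∈ X := by
    intro w hw y h1 x hx
    obtain ⟨μ, hμ⟩ := tr _ (sy y y).symm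
    exact ⟨μ, key w hw y μ h1 hμ x hx⟩
  have ex : ∀ x, x ∉ W₂ → ∃ w ∈ W₁, hermForm n F q x w ≠ 0 := fun x hx => by
    by_contra k
    push Not at k
    exact hx ((hp x).2 k)
  have le1 : ∀ x ∈ X, x ∉ W₂ → W₁ ≤ X := by
    intro x hx hx2
    obtain ⟨w0, hw0, h0⟩ := ex x hx2
    have k : ∀ w ∈ W₁, hermForm n F q x w ≠ 0 → w ∈ X := fun w hw h1 => by
      have := key w hw 0 c (z1 w) (by rw [z1, cq]) x hx
      rw [z2, zero_smul, smul_zero, sub_zero, zero_sub, X.neg_mem_iff] at this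
      exact (X.smul_mem_iff (mul_ne_zero c0 h1)).1 this
    intro w hw
    by_cases h1 : hermForm n F q x w = 0
    · have := k (w + w0) (W₁.add_mem hw hw0) (by rwa [(lin 0 w w0 x).2.1, h1, zero_add])
      exact (X.add_mem_iff_left (k w0 hw0 h0)).1 this
    · exact k w hw h1
  constructor
  · by_cases k : X ≤ W₂
    · exact Or.inl k
    obtain ⟨x, hx, hx2⟩ := SetLike.not_le_iff_exists.1 k
    obtain ⟨w, hw, h0⟩ := ex x hx2
    have wX := le1 x hx hx2 hw
    refine Or.inr (top_le_iff.1 fun v _ => ?_)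
    set b := -(hermForm n F q v w / hermForm n F q x w) with hb
    obtain ⟨μ, hμ⟩ := key' w hw (v + b • x) (by
      rw [(lin 0 v (b • x) w).1, (lin b x x w).2.2.1, hb, neg_mul, div_mul_cancel₀ _ h0,
        add_neg_cancel]) x hx
    have h1 := X.sub_mem (X.smul_mem (hermForm n F q x (v + b • x)) wX)
      (X.add_mem hμ (X.smul_mem (μ * hermForm n F q x w) wX))
    rw [sub_add_cancel, sub_sub_cancel, X.smul_mem_iff h0] at h1
    exact (X.add_mem_iff_left (X.smul_mem b hx)).1 h1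
  · by_cases k : X = ⊥
    · exact Or.inl k
    obtain ⟨x, hx, x0⟩ := (Submodule.ne_bot_iff X).1 k
    refine Or.inr ?_
    by_cases hx2 : x ∈ W₂
    swap
    · exact le1 x hx hx2
    intro w hw
    by_cases hs : x ∈ Submodule.span F {w}
    · obtain ⟨a, rfl⟩ := Submodule.mem_span_singleton.1 hs
      exact (X.smul_mem_iff (left_ne_zero_of_smul x0)).1 hx
    obtain ⟨y, h1, h2⟩ := sep _ x hs
    obtain ⟨μ, hμ⟩ := key' w hw y
      (by rw [sy, h2 w (Submodule.mem_span_singleton_self w), zq]) x hx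
    rwa [h1, (hp x).1 hx2 w hw, one_smul, zero_smul, mul_zero, zero_smul, sub_zero,
      sub_zero] at hμ

end H45.SimDD2a
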