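import Cfsg.Agent.H45.E7U0

/-! E7MAX (S5934): Boolean checkers for `U27` and `G19`, for any evaluation of words. -/

set_option autoImplicit false

namespace H45.E7U
open Cfsg.Lie H36.E7M Module
open H22.BK (Rep sp red tri rk mat app bas frc)

/-- `f` maps the span of `A` into the span of `B` -/
noncomputable def mp (f : ℕ → ℕ) (A B : List ℕ) : Bool := A.all fun b => Nat.beq (red B (f b)) 0

noncomputable def ksChk (U U' : List ℕ) (f : ℕ → ℕ) : Bool :=
  cond (mp f (U.take 1) U) (mp f U U && mp f U' U') (mp f U U' && mp f U' U)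

noncomputable def u27Chk (wa : List ℕ → ℕ → ℕ) (gens : List (List ℕ)) (U U' : List ℕ) : Bool :=
  (tri 133 U && Nat.beq U.length 27) && (mp (wa [125]) U U && mp (wa [125]) U' U') &&
    gens.all fun w => ksChk U U' (wa w)

/-- the word of a word in the generators -/
def fl (gens : List (List ℕ)) (u : List ℕ) : List ℕ := u.flatMap fun i => gens.getD i []

/-- the product of the conjugates of `z` -/
def gw (gens : List (List ℕ)) (us : List (List ℕ)) : List ℕ :=
  us.flatMap fun u => fl gens u ++ [125] ++ (fl gens u).reverse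

/-- force the entries of a list -/
noncomputable def frl {α : Type} (l : List ℕ) : (List ℕ → α) → α :=
  List.rec (motive := fun _ => (List ℕ → α) → α) (fun k => k [])
    (fun a _ r k => frc a fun b => r fun t => k (b :: t)) l

theorem frl_eq {α : Type} (l : List ℕ) (k : List ℕ → α) : frl l k = k l := by
  induction l generalizing k with
  | nil => rfl
  | cons a t ih =>
    have : frl (a :: t) k = frc a fun b => frl t fun t => k (b :: t) := rfl
    rw [this, H22.BK.frc_eq, ih]

/-- the product of two matrices -/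
noncomputable def mm (A B : List ℕ) : List ℕ := mat 133 fun m => frc (app B m) (app A)

noncomputable def p19 (M : List ℕ) : Bool :=
  frl (mm M M) fun M2 => frl (mm M2 M2) fun M4 => frl (mm M4 M4) fun M8 => frl (mm M8 M8) fun M16 =>
    frl (mm M2 M) fun M3 => decide (mm M16 M3 = bas 133)

noncomputable def g19M (M : List ℕ) : Bool :=
  p19 M && Nat.ble 125 (rk 133 ((bas 133).map fun m => app M m ^^^ m))

noncomputable def g19Chk (wa : List ℕ → ℕ → ℕ) (gens : List (List ℕ)) (us : List (List ℕ)) : Bool :=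
  frl (mat 133 (wa (gw gens us))) g19M

/-- an evaluation of words -/
structure Ev (e : chevE7.Idx ≃ Fin 133) (wd : List ℕ → G) (wa : List ℕ → ℕ → ℕ) : Prop where
  nil : wd [] = 1
  app : ∀ a b, wd (a ++ b) = wd a * wd b
  rev : ∀ a, wd a.reverse = (wd a)⁻¹
  z : wd [125] = z
  rep : ∀ a, Rep e (ρ (wd a)) (wa a)

variable {e : chevE7.Idx ≃ Fin 133} {wd : List ℕ → G} {wa : List ℕ → ℕ → ℕ}

theorem mp_of {g : G} {f : ℕ → ℕ} (h : Rep e (ρ g) f) {A B : List ℕ} (q : mp f A B = true) :
    Mp (sp e A) (sp e B) g := h.maps q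

theorem Ev.u27 (h : Ev e wd wa) {gens : List (List ℕ)} {U U' : List ℕ} {S : Set G}
    (hS : ∀ g ∈ S, ∃ w ∈ gens, g = wd w) (q : u27Chk wa gens U U' = true) :
    U27 (Subgroup.closure S) := by
  simp only [u27Chk, Bool.and_eq_true, List.all_eq_true, Nat.beq_eq] at q
  obtain ⟨⟨⟨q1, q2⟩, q3, q4⟩, q5⟩ := q
  refine u27_of (U := sp e U) (U' := sp e U') ((H22.BK.finrank_sp e q1).trans q2) (fun g hg => ?_)
    (h.z ▸ mp_of (h.rep _) q3) (h.z ▸ mp_of (h.rep _) q4)
  obtain ⟨w, hw, rfl⟩ := hS g hg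
  have := q5 w hw
  rw [ksChk] at this
  cases c : mp (wa w) (U.take 1) U <;> rw [c] at this <;>
    simp only [cond_true, cond_false, Bool.and_eq_true] at this
  exacts [.inr ⟨mp_of (h.rep _) this.1, mp_of (h.rep _) this.2⟩,
    .inl ⟨mp_of (h.rep _) this.1, mp_of (h.rep _) this.2⟩]

theorem rep_mm {f g : LA →ₗ[F] LA} {A B : List ℕ} (a : Rep e f (app A)) (b : Rep e g (app B)) :
    Rep e (f * g) (app (mm A B)) :=
  (a.mul b).toMat (by simp only [mm, H22.BK.frc_eq])

theorem g19_of {g : G} {M : List ℕ} (h : Rep e (ρ g) (app M)) (q : g19M M = true) :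
    g ^ 19 = 1 ∧ finrank F (fixS {g}) ≤ 8 := by
  simp only [g19M, p19, frl_eq, Bool.and_eq_true, decide_eq_true_eq, Nat.ble_eq] at q
  have h2 := rep_mm h h
  have h4 := rep_mm h2 h2
  have h8 := rep_mm h4 h4
  have h16 := rep_mm h8 h8
  have h3 := rep_mm h2 h
  refine ⟨ρ_inj ?_, ?_⟩
  · have := (h16.mul h3).ext Rep.id (by
      refine Eq.trans ?_ q.1
      generalize mm (mm M M) M = B
      generalize mm (mm _ _) (mm _ _) = A
      simp only [mm, H22.BK.frc_eq])
    rw [← this, map_pow]
    generalize ρ g = f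
    noncomm_ring
  · have : finrank F (LinearMap.ker (ρ g - 1)) + _ ≤ 133 := h.sub_one.ker_le (bas 133)
    rw [fixS_single]
    have := q.2
    omega

theorem Ev.fl_mem (h : Ev e wd wa) {gens : List (List ℕ)} {Y : Subgroup G}
    (hY : ∀ w ∈ gens, wd w ∈ Y) (u : List ℕ) : wd (fl gens u) ∈ Y := by
  induction u with
  | nil => exact h.nil ▸ one_mem Y
  | cons i t ih =>
    rw [fl, List.flatMap_cons, h.app]
    refine mul_mem ?_ ih
    rcases lt_or_ge i gens.length with c | c
    · rw [List.getD_eq_getElem _ _ c]; exact hY _ (List.getElem_mem _)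
    · rw [List.getD_eq_default _ _ c, h.nil]; exact one_mem Y

theorem Ev.g19 (h : Ev e wd wa) {gens : List (List ℕ)} {Y : Subgroup G}
    (hY : ∀ w ∈ gens, wd w ∈ Y) {us : List (List ℕ)} (q : g19Chk wa gens us = true) : G19 Y := by
  rw [g19Chk, frl_eq] at q
  refine ⟨wd (gw gens us), ?_, g19_of ((h.rep _).toMat rfl) q⟩
  clear q
  induction us with
  | nil => exact h.nil ▸ one_mem _
  | cons u t ih =>
    rw [gw, List.flatMap_cons, h.app]
    refine mul_mem (Subgroup.subset_closure ⟨_, h.fl_mem hY u, ?_⟩) ih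
    rw [h.app, h.app, h.rev, h.z, cj_def]

end H45.E7U
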