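import Cfsg.Agent.H36.O84Spec
/-! O84 tower: a subgroup of order 125 of the torus is a hyperplane. -/
set_option autoImplicit false
open Matrix
namespace H45.O84H

theorem hyp (B : AddSubgroup (Fin 4 → ZMod 5)) (h : Nat.card B = 125) :
    ∃ f : Fin 4 → ZMod 5, f ≠ 0 ∧ ∀ a, a ∈ B ↔ f ⬝ᵥ a = 0 := by
  have : Fact (Nat.Prime 5) := ⟨by norm_num⟩
  let S : Submodule (ZMod 5) (Fin 4 → ZMod 5) := AddSubgroup.toZModSubmodule 5 B
  have cS : Nat.card S = 125 := h
  have cV : Nat.card (Fin 4 → ZMod 5) = 625 := by simp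
  have lt : S < ⊤ := lt_top_iff_ne_top.2 fun e => by
    rw [e, Nat.card_congr Submodule.topEquiv.toEquiv, cV] at cS; exact absurd cS (by decide)
  obtain ⟨φ, h1, h2⟩ := S.exists_le_ker_of_lt_top lt
  have e : ∀ a, (fun j => φ (Pi.single j 1)) ⬝ᵥ a = φ a := fun a => by
    rw [LinearMap.pi_apply_eq_sum_univ φ a, dotProduct]
    refine Finset.sum_congr rfl fun j _ => ?_
    rw [smul_eq_mul, mul_comm]
    congr 2
    ext k; simp [Pi.single_apply, eq_comm]
  refine ⟨fun j => φ (Pi.single j 1), fun k => h1 (LinearMap.ext fun a => by rw [← e, k]; simp), fun a => ?_⟩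
  rw [e]
  have r1 : Module.finrank (ZMod 5) S = 3 := by
    have := Module.natCard_eq_pow_finrank (K := ZMod 5) (V := S)
    rw [cS, Nat.card_zmod] at this
    exact Nat.pow_right_injective (by decide : 2 ≤ 5) (this.symm.trans (by norm_num))
  have r2 : Module.finrank (ZMod 5) (LinearMap.ker φ) = 3 := by
    have := Module.Dual.finrank_ker_add_one_of_ne_zero h1
    simp only [Module.finrank_fin_fun] at this
    omega
  have := Submodule.eq_of_le_of_finrank_eq h2 (r1.trans r2.symm)
  show a ∈ S ↔ _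
  rw [this, LinearMap.mem_ker]

theorem jobHYP : H36.O84.JobHYP := by
  intro Γ _ S B hB h
  obtain ⟨f, h1, h2⟩ := hyp (Subgroup.toAddSubgroup' (B.comap S.τ)) (by
    have := Subgroup.card_map_of_injective (K := B.comap S.τ) S.inj
    rw [Subgroup.map_comap_eq_self hB, h] at this
    exact this.symm)
  exact ⟨f, h1, h2⟩

end H45.O84H
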