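/- CKS (S2193): generic lemmas for the long root kill. -/
import Cfsg.Agent.H32.CKKit2

set_option autoImplicit false
set_option linter.unusedSectionVars false

namespace H45.CK
open Subgroup MulAction H32.CK
open H98 (cj mem_cj cj_cj card_cj cj_inf cj_eq_self)

/-- Transport of chapter B along an isomorphism. -/
theorem of_false {p : ℕ} [Fact p.Prime] {L : Type} [Group L]
    (h : ∀ (Ω : Type) [Finite L] [MulAction L Ω] [Finite Ω], CB p L Ω → False) : ChB p L := by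
  intro G Ω _ _ _ _ ⟨e⟩ hG
  letI : MulAction L Ω := MulAction.compHom Ω e.symm.toMonoidHom
  haveI : Finite L := Finite.of_equiv G e.toEquiv
  have s : ∀ (g : L) (a : Ω), g • a = e.symm g • a := fun _ _ => rfl
  haveI := hG.simple
  refine (h Ω ⟨⟨⟨fun {g k} c => e.symm.injective ?_⟩, is_two_pretransitive_iff.2 fun c d => ?_,
    e.symm.isSimpleGroup, fun c => hG.nc ⟨⟨fun a b => e.injective ?_⟩⟩⟩, hG.dvd, fun U a b => ?_⟩).elim
  · haveI := hG.faith
    exact eq_of_smul_eq_smul (α := Ω) c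
  · obtain ⟨g, h1, h2⟩ := hG.toAct.ex c d
    exact ⟨e g, by rw [s, e.symm_apply_apply, h1], by rw [s, e.symm_apply_apply, h2]⟩
  · rw [map_mul, map_mul, c.is_comm.comm]
  · obtain ⟨g, h1, h2⟩ := hG.bt (U.comapOfInjective e.toMonoidHom e.injective
      (by rw [MonoidHom.range_eq_top.2 e.surjective]; exact le_top)) a b
    refine ⟨e g, mem_normalizer_iff.2 fun y => ?_, by rw [s, e.symm_apply_apply, h2]⟩
    have := mem_normalizer_iff.1 h1 (e.symm y)
    simpa [Sylow.coe_comapOfInjective, mem_comap] using this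

theorem exists_fix {G : Type*} [Group G] [Finite G] {p : ℕ} [Fact p.Prime] {A M : Subgroup G}
    (hA : IsPGroup p A) (hn : A ≤ normalizer (M : Set G)) (hd : p ∣ Nat.card M) :
    ∃ m ∈ M, m ≠ 1 ∧ ∀ x ∈ A, x * m = m * x := by
  let _ := MulAction.compHom M (M.normalizerMonoidHom.comp (inclusion hn))
  obtain ⟨m, hm, ne⟩ := hA.exists_fixed_point_of_prime_dvd_card_of_fixed_point (α := M) hd (a := 1)
    fun x => map_one (M.normalizerMonoidHom (inclusion hn x))
  exact ⟨m, m.2, fun e => ne (Subtype.ext e.symm), fun x hx =>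
    mul_inv_eq_iff_eq_mul.1 (congrArg Subtype.val (hm ⟨x, hx⟩))⟩

theorem arith {n q M r : ℕ} (h1 : M ∣ n) (h2 : 2 ≤ n) (h3 : n - 1 ∣ (q * M - 1) * r) (h4 : 0 < r)
    (hq : 2 ≤ q) (h5 : (q - 1) * r + 1 < M) : n = q * M := by
  obtain ⟨a, rfl⟩ := h1
  obtain ⟨s, hs⟩ := h3
  have ha : 1 ≤ a := Nat.pos_of_ne_zero (by rintro rfl; simp at h2)
  have hM : 1 ≤ q * M := Nat.mul_pos (by omega) (by omega)
  have h6 : r < M := by
    have : 1 * r ≤ (q - 1) * r := Nat.mul_le_mul_right _ (by omega)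
    omega
  zify [hM, (by omega : 1 ≤ M * a), (by omega : 1 ≤ q)] at hs h5 h6 ha h4 h2 hq ⊢
  have e : (s : ℤ) = r + M * (a * s - q * r) := by linear_combination hs
  generalize ht : (a * s - q * r : ℤ) = t at e
  have hs0 : (0 : ℤ) ≤ s := Int.natCast_nonneg s
  have t0 : 0 ≤ t := by
    by_contra c
    nlinarith
  have e2 : t * (M * a - 1) = (q - a) * r := by rw [e] at ht; linear_combination ht
  rcases t0.eq_or_lt with rfl | c
  · have : (q : ℤ) - a = 0 := (mul_eq_zero.1 (by linear_combination -e2)).resolve_right h4.ne'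
    rw [show (a : ℤ) = q by omega, mul_comm]
  · nlinarith

section triv
variable {H Δ : Type*} [Group H] [Finite H] [MulAction H Δ] [Finite Δ]

theorem card_fix_conj (g x : H) : Nat.card (fixedBy Δ (g * x * g⁻¹)) = Nat.card (fixedBy Δ x) :=
  (Nat.card_congr ((MulAction.toPerm g).subtypeEquiv fun a => by
    simp [mem_fixedBy, mul_smul])).symm

/-- A subgroup with one class of non-trivial elements acting on a small set. -/
theorem triv {X : Subgroup H} (hc : ∀ x ∈ X, x ≠ 1 → ∀ y ∈ X, y ≠ 1 → ∃ g, g * x * g⁻¹ = y)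
    (hi : Nat.card Δ ≤ Nat.card X) (h : Nat.card Δ < Nat.card X ∨ (∀ x ∈ X, ∀ z ∈ X, z * x = x * z) ∧
      ∃ a, (∀ z ∈ X, z * a = a * z) ∧ ∀ z ∈ X, ∃ g, g * a * g⁻¹ = z * a) {x : H} (hx : x ∈ X) (δ : Δ) :
    x • δ = δ := by
  classical
  by_contra c
  have x1 : x ≠ 1 := by rintro rfl; exact c (one_smul _ _)
  haveI := Fintype.ofFinite X
  haveI := Fintype.ofFinite Δ
  haveI := Fintype.ofFinite (orbitRel.Quotient X Δ)
  have k : ∀ y : X, y ≠ 1 → Fintype.card (fixedBy Δ y) = Nat.card (fixedBy Δ x) := fun y hy => by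
    obtain ⟨g, e⟩ := hc x hx x1 y y.2 fun e => hy (Subtype.ext e)
    rw [← card_fix_conj g, e, ← Nat.card_eq_fintype_card]; rfl
  have b := sum_card_fixedBy_eq_card_orbits_mul_card_group X Δ
  rw [← Finset.add_sum_erase _ _ (Finset.mem_univ 1), Finset.sum_congr rfl fun y hy =>
    k y (Finset.ne_of_mem_erase hy), Finset.sum_const, Finset.card_erase_of_mem (Finset.mem_univ _),
    Finset.card_univ, smul_eq_mul, ← Nat.card_eq_fintype_card (α := X), ← Nat.card_eq_fintype_card,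
    fixedBy_one_eq_univ, Nat.card_congr (Equiv.Set.univ Δ)] at b
  have lt : Nat.card (fixedBy Δ x) < Nat.card Δ := Finite.card_subtype_lt (x := δ) c
  obtain ⟨t, ht⟩ := Nat.exists_eq_add_of_le' (Nat.card_pos (α := X))
  have d : Nat.card X ∣ Nat.card Δ - Nat.card (fixedBy Δ x) := by
    refine (Nat.dvd_add_left (Dvd.intro (Nat.card (fixedBy Δ x)) rfl)).1
      ⟨Fintype.card (orbitRel.Quotient X Δ), ?_⟩
    rw [mul_comm _ (Fintype.card _), ← b, ht, Nat.add_sub_cancel, add_mul]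
    omega
  have d2 := Nat.le_of_dvd (by omega) d
  obtain ⟨h1, a, h2, h3⟩ := h.resolve_left (by omega)
  have sj : ∀ β : Δ, Function.Surjective fun y : X => (y : H) • β := fun β =>
    ((Nat.bijective_iff_injective_and_card _).2 ⟨fun y z e => by
      by_contra n
      have h4 := k (z⁻¹ * y) fun e => n (inv_mul_eq_one.1 e).symm
      rw [show Nat.card (fixedBy Δ x) = 0 by omega, Fintype.card_eq_zero_iff] at h4
      exact h4.false ⟨β, by
        change ((z : H)⁻¹ * y) • β = β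
        rw [mul_smul, inv_smul_eq_iff]; exact e⟩, by omega⟩).2
  obtain ⟨z, hz⟩ := sj (a • δ) δ
  have t1 : ∀ β : Δ, ((z : H) * a) • β = β := fun β => by
    obtain ⟨y, rfl⟩ := sj δ β
    change _ • (y : H) • δ = (y : H) • δ
    rw [← mul_smul, mul_assoc, ← h2 y y.2, ← mul_assoc, h1 y y.2 z z.2, mul_assoc, mul_smul,
      mul_smul]
    exact congrArg _ hz
  obtain ⟨g, e⟩ := h3 z z.2
  have t2 : ∀ β : Δ, a • β = β := fun β => by
    have := t1 (g • β)
    rwa [← e, mul_smul, inv_smul_smul, mul_smul, smul_left_cancel_iff] at this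
  obtain ⟨g, e⟩ := h3 x hx
  apply c
  conv_lhs => rw [← t2 δ, ← mul_smul, ← e, mul_smul, mul_smul, t2, smul_inv_smul]

end triv

theorem le_of_idx {G : Type*} [Group G] [Finite G] {P M X : Subgroup G} (hX : X ≤ P)
    (hc : ∀ x ∈ X, x ≠ 1 → ∀ y ∈ X, y ≠ 1 → ∃ g ∈ P, g * x * g⁻¹ = y)
    (hi : M.relIndex P ≤ Nat.card X) (h : M.relIndex P < Nat.card X ∨
      (∀ x ∈ X, ∀ z ∈ X, z * x = x * z) ∧
      ∃ a ∈ P, (∀ z ∈ X, z * a = a * z) ∧ ∀ z ∈ X, ∃ g ∈ P, g * a * g⁻¹ = z * a) : X ≤ M := by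
  intro x hx
  have c : Nat.card (X.subgroupOf P) = Nat.card X := Nat.card_congr (subgroupOfEquivOfLe hX).toEquiv
  have := triv (Δ := P ⧸ M.subgroupOf P) (X := X.subgroupOf P) (fun x hx x1 y hy y1 => by
      obtain ⟨g, hg, e⟩ := hc x hx (fun e => x1 (Subtype.ext e)) y hy fun e => y1 (Subtype.ext e)
      exact ⟨⟨g, hg⟩, Subtype.ext e⟩) (c ▸ hi) (h.imp (c ▸ id) fun ⟨h1, a, ha, h2, h3⟩ =>
      ⟨fun x hx z hz => Subtype.ext (h1 x hx z hz), ⟨a, ha⟩, fun z hz => Subtype.ext (h2 z hz),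
        fun z hz => let ⟨g, hg, e⟩ := h3 z hz; ⟨⟨g, hg⟩, Subtype.ext e⟩⟩)
    (x := ⟨x, hX hx⟩) hx ((1 : P) : P ⧸ M.subgroupOf P)
  rw [MulAction.Quotient.smul_coe, QuotientGroup.eq] at this
  simpa [mem_subgroupOf] using this

/-- The length of the class of an element of `Z`. -/
theorem index_cen_dvd {G : Type*} [Group G] [Finite G] {Z P : Subgroup G}
    (hP : P ≤ normalizer (Z : Set G)) {z : G} (hz : z ∈ Z) (z1 : z ≠ 1)
    (h : ∀ y ∈ Z, y ≠ 1 → ∃ g ∈ normalizer (Z : Set G), g * z * g⁻¹ = y) :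
    (centralizer ({z} : Set G)).index ∣ P.index * (Nat.card Z - 1) := by
  set N := normalizer (Z : Set G)
  letI : MulAction N G := MulAction.compHom G (MulAut.conj.comp N.subtype)
  have s : ∀ (g : N) (y : G), g • y = g * y * (g : G)⁻¹ := fun _ _ => rfl
  have e1 : stabilizer N z = (centralizer ({z} : Set G)).subgroupOf N := by
    ext g
    rw [mem_stabilizer_iff, s, mem_subgroupOf, mem_centralizer_singleton_iff, mul_inv_eq_iff_eq_mul]
  have e2 : orbit N z = (Z : Set G) \ {1} := by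
    ext y
    constructor
    · rintro ⟨g, rfl⟩
      exact ⟨H98.conj_mem_of_mem_normalizer g.2 hz, fun e => z1 (by simpa [s] using e)⟩
    · rintro ⟨h1, h2⟩
      obtain ⟨g, hg, e⟩ := h y h1 h2
      exact ⟨⟨g, hg⟩, e⟩
  have e3 := index_stabilizer N z
  rw [e1, e2, Set.ncard_diff_singleton_of_mem (one_mem Z)] at e3
  have e4 := relIndex_mul_index (inf_le_right : centralizer ({z} : Set G) ⊓ N ≤ N)
  rw [inf_relIndex_right, relIndex, e3] at e4
  refine (index_dvd_of_le (inf_le_left : _ ⊓ N ≤ _)).trans ?_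
  rw [← e4, mul_comm]
  exact mul_dvd_mul (index_dvd_of_le hP) dvd_rfl

variable {p : ℕ} {G Ω : Type} [Group G] [Finite G] [MulAction G Ω] [Finite Ω]

/-- LINES for the plane spanned by `Z` and a conjugate `W` on which `X` acts by shears. -/
theorem line [hp : Fact p.Prime] (h : CB p G Ω) (U : Sylow p G) {Z W X : Subgroup G}
    (hZ : normalizer ((U : Subgroup G) : Set G) ≤ normalizer (Z : Set G)) {k : G} (hW : W = cj k Z)
    {f : ℕ} (hf : 0 < f) (cZ : Nat.card Z = p ^ f) (cX : Nat.card X = p ^ f) (hU : Z ⊔ W ≤ U)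
    (hi : Z ⊓ W = ⊥) (hn : W ≤ normalizer (Z : Set G))
    (h1 : ∀ y ∈ X, ∀ a ∈ W, y * a * y⁻¹ * a⁻¹ ∈ Z)
    (h2 : ∀ a ∈ W, a ≠ 1 → ∀ z ∈ Z, ∃ y ∈ X, y * a * y⁻¹ = z * a) (a : Ω) :
    (∀ g, stabilizer G a ⊓ cj g Z = ⊥) ∧ stabilizer G a ⊓ (Z ⊔ W) = ⊥ := by
  classical
  haveI := Fintype.ofFinite X
  have key : ∀ y y' : X, ∀ u ∈ W, ∀ u' ∈ W, u ≠ 1 → y * u * (y : G)⁻¹ = y' * u' * (y' : G)⁻¹ →
      y = y' := fun y y' u hu u' hu' u1 e => by
    have e1 : u' * u⁻¹ ∈ Z ⊓ W := mem_inf.2 ⟨by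
      have := mul_mem (inv_mem (h1 _ y'.2 _ hu')) (h1 _ y.2 _ hu)
      rw [e] at this
      convert this using 1
      group, mul_mem hu' (inv_mem hu)⟩
    rw [hi, mem_bot, mul_inv_eq_one] at e1
    subst e1
    refine ((Nat.bijective_iff_surjective_and_card (fun y : X => (⟨_, h1 _ y.2 _ hu⟩ : Z))).2
      ⟨fun z => ?_, cX.trans cZ.symm⟩).1 (Subtype.ext (congrArg (· * u'⁻¹) e))
    obtain ⟨y, hy, e⟩ := h2 _ hu u1 z z.2
    exact ⟨⟨y, hy⟩, Subtype.ext (mul_inv_eq_iff_eq_mul.2 e)⟩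
  have q1 : 1 < p ^ f := Nat.one_lt_pow hf.ne' hp.out.one_lt
  have nz : ∀ y : X, Z ⊓ cj (y : G) W = ⊥ := fun y => eq_bot_iff.2 <| by
    rintro _ ⟨hz, u, hu, rfl⟩
    have : u ∈ Z ⊓ W := mem_inf.2 ⟨by
      simpa [mul_assoc] using mul_mem (inv_mem (h1 _ y.2 _ hu)) hz, hu⟩
    rw [hi, mem_bot] at this
    simp [this]
  have cW : ∀ y : X, Nat.card (cj (y : G) W) = p ^ f := fun y => by rw [card_cj, hW, card_cj, cZ]
  have nb : ∀ y : X, cj (y : G) W ≠ ⊥ := fun y e => by have := cW y; rw [e, card_bot] at this; omega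
  have ti : ∀ y y' : X, y ≠ y' → cj (y : G) W ⊓ cj (y' : G) W = ⊥ := fun y y' n => eq_bot_iff.2 <| by
    rintro _ ⟨⟨u, hu, rfl⟩, u', hu', e⟩
    by_contra c
    exact n (key y y' u hu u' hu' (by rintro rfl; simp at c) e.symm)
  let L := insert Z (Finset.univ.image fun y : X => cj (y : G) W)
  have cL : L.card = p ^ f + 1 := by
    rw [Finset.card_insert_of_notMem, Finset.card_image_of_injective, Finset.card_univ,
      ← Nat.card_eq_fintype_card, cX]
    · intro y y' e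
      by_contra n
      exact nb y (by rw [← ti y y' n, ← show cj (y : G) W = cj (y' : G) W from e, inf_idem])
    · simp only [Finset.mem_image, Finset.mem_univ, true_and, not_exists]
      exact fun y e => nb y (by rw [← nz y, e, inf_idem])
  have k2 := card_part L (inf_le_right : stabilizer G a ⊓ (Z ⊔ W) ≤ Z ⊔ W) (fun x hx x1 => by
    obtain ⟨z, hz, u, hu, rfl⟩ := (H98.mem_sup_right_norm hn).1 hx
    by_cases u1 : u = 1
    · exact ⟨Z, Finset.mem_insert_self _ _, by simpa [u1] using hz⟩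
    · obtain ⟨y, hy, e⟩ := h2 u hu u1 z hz
      exact ⟨cj (y : G) W, Finset.mem_insert_of_mem (Finset.mem_image.2 ⟨⟨y, hy⟩, Finset.mem_univ _, rfl⟩),
        e ▸ H98.conj_mem_cj hu⟩) (fun A hA B hB n => by
    simp only [L, Finset.mem_insert, Finset.mem_image, Finset.mem_univ, true_and] at hA hB
    rcases hA with rfl | ⟨y, rfl⟩ <;> rcases hB with rfl | ⟨y', rfl⟩
    · exact absurd rfl n
    · exact nz y'
    · rw [inf_comm]; exact nz y
    · exact ti y y' fun e => n (e ▸ rfl))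
  obtain ⟨j, hj, ej⟩ := (Nat.dvd_prime_pow hp.out).1
    (cZ ▸ card_dvd_of_le (inf_le_right : stabilizer G a ⊓ Z ≤ Z))
  obtain ⟨m, em⟩ := (U.isPGroup'.to_le
    ((inf_le_right : stabilizer G a ⊓ (Z ⊔ W) ≤ Z ⊔ W).trans hU)).exists_card_eq
  rw [Finset.sum_congr rfl (g := fun _ => p ^ j - 1) fun Y b => by
    simp only [L, Finset.mem_insert, Finset.mem_image, Finset.mem_univ, true_and] at b
    rcases b with rfl | ⟨y, rfl⟩
    · rw [inf_assoc, inf_eq_right.2 (le_sup_left : Y ≤ Y ⊔ W), ej]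
    · rw [inf_assoc, inf_eq_right.2 (show cj (y : G) W ≤ Z ⊔ W from ?_), hW, cj_cj, h.card_eq U hZ a a, ej]
      rintro _ ⟨u, hu, rfl⟩
      simpa using mul_mem (mem_sup_left (T := W) (h1 _ y.2 _ hu)) (mem_sup_right hu),
    Finset.sum_const, smul_eq_mul, em, cL] at k2
  have z1 : Z ≠ ⊥ := fun e => by rw [e, card_bot] at cZ; omega
  have jf : j < f := hj.lt_of_ne fun e => h.not_le U hZ z1 a 1 (by
    rw [H98.cj_one, ← eq_of_le_of_card_ge (inf_le_right : stabilizer G a ⊓ Z ≤ Z)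
      (by rw [ej, e, cZ])]
    exact inf_le_left)
  obtain rfl := lines_arith hp.out jf k2
  refine ⟨fun g => by rw [← card_eq_one, h.card_eq U hZ a a, ej, pow_zero], ?_⟩
  have := Nat.one_le_pow m p hp.out.pos
  rw [← card_eq_one, em]
  simp only [pow_zero, Nat.sub_self, mul_zero] at k2
  omega

section lists
variable {ι : Type*} {Q C : Subgroup G} (hC : ∀ x ∈ Q, ∀ c ∈ C, x * c * x⁻¹ ∈ C) {f g : ι → G}
include hC

theorem prod_mod {l : List ι} (hf : ∀ i ∈ l, f i ∈ Q) (h : ∀ i ∈ l, g i * (f i)⁻¹ ∈ C) :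
    (l.map g).prod * ((l.map f).prod)⁻¹ ∈ C := by
  induction l with
  | nil => simp
  | cons a l ih =>
    have := mul_mem (h a (by simp)) (hC _ (hf a (by simp)) _
      (ih (fun i hi => hf i (by simp [hi])) fun i hi => h i (by simp [hi])))
    simpa [mul_assoc] using this

theorem single_mod {l : List ι} (hn : l.Nodup) {r : ι} (hr : r ∈ l) (hf : ∀ i ∈ l, f i ∈ Q)
    (hg : g r ∈ Q) (h : ∀ i ∈ l, i ≠ r → g i * (f i)⁻¹ ∈ C)
    (ht : (l.map g).prod * ((l.map f).prod)⁻¹ ∈ C) : g r * (f r)⁻¹ ∈ C := by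
  obtain ⟨l1, l2, rfl⟩ := List.append_of_mem hr
  rw [List.nodup_middle, List.nodup_cons, List.mem_append, not_or] at hn
  have f1 : ∀ i ∈ l1, f i ∈ Q := fun i hi => hf i (by simp [hi])
  have q1 : (l1.map f).prod ∈ Q := Q.list_prod_mem fun x hx => by
    obtain ⟨i, hi, rfl⟩ := List.mem_map.1 hx; exact f1 i hi
  have c1 := prod_mod hC f1 fun i hi => h i (by simp [hi]) (by rintro rfl; exact hn.1.1 hi)
  have c2 := prod_mod hC (l := l2) (fun i hi => hf i (by simp [hi]))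
    fun i hi => h i (by simp [hi]) (by rintro rfl; exact hn.1.2 hi)
  have := mul_mem (inv_mem (hC _ hg _ c2)) (hC _ (inv_mem q1) _ (mul_mem (inv_mem c1) ht))
  simpa [mul_assoc] using this

end lists

end H45.CK
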