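import Cfsg.Agent.H42.IVSpec
/-! IV tower: the double count with a Sylow 2-subgroup. -/
set_option autoImplicit false
namespace H45.IVC
open Subgroup H42.IV
universe u
variable {H : Type u} [Group H] [Finite H]

theorem fib (a : H) (T : Set H) : Nat.card {g : H | g * a * g⁻¹ ∈ T} ≤
    Nat.card (centralizer ({a} : Set H)) * {b | b ∈ T ∧ IsConj a b}.ncard := by
  have h : ∀ x : H, ∃ t : H, IsConj a x → t * a * t⁻¹ = x := fun x => by
    by_cases e : IsConj a x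
    · exact (isConj_iff.1 e).imp fun _ h _ => h
    · exact ⟨1, fun k => absurd k e⟩
  choose t ht using h
  rw [← Nat.card_coe_set_eq, ← Nat.card_prod]
  refine Nat.card_le_card_of_injective (fun g => (⟨(t (g * a * (g : H)⁻¹))⁻¹ * g,
    mem_centralizer_singleton_iff.2 ?_⟩, ⟨g * a * (g : H)⁻¹, g.2, isConj_iff.2 ⟨g, rfl⟩⟩)) fun g g' e => ?_
  · have := ht _ (isConj_iff.2 ⟨g, rfl⟩)
    generalize t (g * a * (g : H)⁻¹) = s at this
    calc s⁻¹ * g * a = s⁻¹ * (g * a * (g : H)⁻¹) * g := by group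
      _ = _ := by rw [← this]; group
  · have h1 := congrArg (fun z => (z.1 : H)) e
    have h2 := congrArg (fun z => (z.2 : H)) e
    simp only at h1 h2
    rw [h2] at h1
    exact Subtype.ext (mul_left_cancel h1)

theorem pairs (a : H) (P : Sylow 2 H) :
    {b | IsConj a b ∧ ∃ Q : Sylow 2 H, a ∈ Q ∧ b ∈ Q}.ncard * Nat.card P ≤
      Nat.card {g : H | g * a * g⁻¹ ∈ P} * {b | b ∈ P ∧ IsConj a b}.ncard := by
  have : Fact (Nat.Prime 2) := ⟨Nat.prime_two⟩
  have h : ∀ b : {b | IsConj a b ∧ ∃ Q : Sylow 2 H, a ∈ Q ∧ b ∈ Q},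
      ∃ g : H, g * a * g⁻¹ ∈ P ∧ g * b * g⁻¹ ∈ P := fun ⟨b, _, Q, h1, h2⟩ => by
    obtain ⟨g, rfl⟩ := MulAction.exists_smul_eq H Q P
    exact ⟨g, smul_mem_pointwise_smul a (MulAut.conj g) _ h1, smul_mem_pointwise_smul b (MulAut.conj g) _ h2⟩
  choose g h1 h2 using h
  have k : ∀ (p : P) (y x : H), y * x * y⁻¹ ∈ P → p * y * x * (p * y)⁻¹ ∈ P := fun p y x e => by
    have := mul_mem (mul_mem p.2 e) (inv_mem p.2)
    convert this using 1
    group
  rw [← Nat.card_coe_set_eq, ← Nat.card_coe_set_eq, ← Nat.card_prod, ← Nat.card_prod]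
  refine Nat.card_le_card_of_injective (fun z => (⟨z.2 * g z.1, k _ _ _ (h1 z.1)⟩,
    ⟨z.2 * g z.1 * z.1 * (z.2 * g z.1)⁻¹, k _ _ _ (h2 z.1), z.1.2.1.trans (isConj_iff.2 ⟨_, rfl⟩)⟩)) ?_
  rintro ⟨b, p⟩ ⟨b', p'⟩ e
  have e1 := congrArg (fun z => (z.1 : H)) e
  have e2 := congrArg (fun z => (z.2 : H)) e
  simp only at e1 e2
  rw [e1, mul_left_inj, mul_right_inj] at e2
  obtain rfl := Subtype.ext e2
  rw [Subtype.ext (mul_right_cancel e1)]

theorem jobCnt : JobCnt.{u} := by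
  intro A H _ _ a P a2
  have h1 := A H a a2
  have h2 := pairs a P
  have h3 := fib a (P : Set H)
  have h4 := fib a Set.univ
  simp only [Set.mem_univ, true_and, Set.setOf_true, Nat.card_coe_set_eq, Set.ncard_univ] at h4
  rw [← (P : Subgroup H).index_mul_card] at h4
  change Nat.card {g : H | g * a * g⁻¹ ∈ P} ≤ _ * {b | b ∈ P ∧ IsConj a b}.ncard at h3
  calc _ = (P : Subgroup H).index * Nat.card P * Nat.card P := by ring
    _ ≤ _ := Nat.mul_le_mul_right _ (h4.trans (Nat.mul_le_mul_left _ h1))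
    _ = Nat.card (centralizer ({a} : Set H)) * (J a).ncard *
        ({b | IsConj a b ∧ ∃ Q : Sylow 2 H, a ∈ Q ∧ b ∈ Q}.ncard * Nat.card P) := by ring
    _ ≤ _ := Nat.mul_le_mul_left _ (h2.trans (Nat.mul_le_mul_right _ h3))
    _ = _ := by ring

end H45.IVC
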