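/- CKS (S2193): chapter B for the groups with the interface `H2.MX.MD`. -/
import Cfsg.Agent.H45.CKGen
import Cfsg.Agent.H2.MX11

set_option autoImplicit false
set_option linter.unusedSectionVars false

namespace H45.CK
open Subgroup MulAction H32.CK H2.MX H63 Cfsg.Lie
open H64 (gen le_gen gen_le)
open H98 (cj mem_cj)
open scoped commutatorElement

variable {D : ChevalleyDatum} [RS D] {F : Type*} [Field F] [Fintype F] {G : Type} [Group G]
  [Finite G] {M : MD D F G} {θ : Rt D} {b : Fin D.rank}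

/-- the roots of the Heisenberg group -/
def SQ (θ : Rt D) : Set (Rt D) := {r | 1 ≤ D.pairing θ r}
/-- their list -/
def lQ (θ : Rt D) : List (Rt D) := (List.finRange D.nroots).filter fun r => decide (1 ≤ D.pairing θ r)
/-- the Heisenberg group -/
abbrev QQ (M : MD D F G) (θ : Rt D) : Subgroup G := gen M.Y (SQ θ)
/-- `g` normalises all root subgroups -/
def Tor (M : MD D F G) (g : G) : Prop := ∀ s y, y ∈ M.Y s ↔ g * y * g⁻¹ ∈ M.Y s
/-- the torus is transitive on the non-trivial elements of a root subgroup -/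
def T3 (M : MD D F G) (r : Rt D) : Prop :=
  ∀ x ∈ M.Y r, x ≠ 1 → ∀ y ∈ M.Y r, y ≠ 1 → ∃ g, Tor M g ∧ g * x * g⁻¹ = y
/-- the second centre -/
def Z2 (M : MD D F G) (θ : Rt D) (b : Fin D.rank) : Prop := ∀ y ∈ QQ M θ,
  (∀ t, Pos t → D.pairing θ t = 0 → ∀ u ∈ M.Y t, u * y * u⁻¹ * y⁻¹ ∈ M.Y θ) →
    y ∈ M.Y θ ⊔ M.Y (sref b θ)

theorem mem_lQ {r : Rt D} : r ∈ lQ θ ↔ r ∈ SQ θ := by simp [lQ, SQ]
theorem nodup_lQ : (lQ θ).Nodup := (List.nodup_finRange _).filter _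
theorem self_SQ : θ ∈ SQ θ := by rw [SQ, Set.mem_setOf_eq, pairing_self]; omega

theorem ne_neg {r s : Rt D} (hr : r ∈ SQ θ) (hs : 0 ≤ D.pairing θ s) : r ≠ negR s := by
  rintro rfl
  rw [SQ, Set.mem_setOf_eq, pairing_negR] at hr
  omega

theorem pairing_add (p : Rt D) {r s u : Rt D} (e : rt u = rt r + rt s) :
    D.pairing p u = D.pairing p r + D.pairing p s := by
  simpa using pairing_of_comb p (a := 1) (b := 1) (u := u) (r := r) (s := s) (by simpa using e)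

theorem t3_long {r : Rt D} (h : M.m r = 1) : T3 M r := fun x hx x1 y hy y1 => by
  obtain ⟨t, rfl⟩ := ((M.par r h).mem x).1 hx
  obtain ⟨u, rfl⟩ := ((M.par r h).mem y).1 hy
  have u0 : u ≠ 0 := by rintro rfl; exact y1 (M.par r h).zero
  have t0 : t ≠ 0 := by rintro rfl; exact x1 (M.par r h).zero
  obtain ⟨g, h1, h2⟩ := M.T1 r h (t / u) (div_ne_zero t0 u0)
  have := h2 u
  rw [div_mul_cancel₀ _ u0] at this
  exact ⟨g, h1, by rw [← this]; group⟩

theorem t3_all (h : ∀ i, M.m (simpleR i) ≠ 1 → T3 M (simpleR i)) (r : Rt D) : T3 M r := by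
  obtain ⟨w, i, rfl⟩ := (wdata D).exists_simple r
  obtain ⟨g, hg⟩ := M.exists_W w
  have hg' : ∀ r y, y ∈ M.Y (w.1 r) ↔ g⁻¹ * y * g ∈ M.Y r := fun r y => by
    rw [hg r]; simp [mul_assoc]
  have k : T3 M (simpleR i) := (em _).elim t3_long (h i)
  intro x hx x1 y hy y1
  have ne : ∀ {x : G}, x ≠ 1 → g⁻¹ * x * g ≠ 1 := fun n e => n (by
    rwa [mul_eq_one_iff_eq_inv, mul_eq_left] at e)
  obtain ⟨a, h1, h2⟩ := k _ ((hg' _ _).1 hx) (ne x1) _ ((hg' _ _).1 hy) (ne y1)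
  refine ⟨g * a * g⁻¹, fun s y => ?_, ?_⟩
  · obtain ⟨s, rfl⟩ := w.1.surjective s
    rw [hg', hg', h1]
    simp [mul_assoc]
  · calc _ = g * (a * (g⁻¹ * x * g) * a⁻¹) * g⁻¹ := by group
      _ = y := by rw [h2]; group

theorem Tor.norm {g : G} (h : Tor M g) (S : Set (Rt D)) : g ∈ normalizer (gen M.Y S : Set G) :=
  mem_normalizer_fintype fun _ hy => H64.conj_mem_of_gen (fun c hc y hy => le_gen _ hc ((h c y).1 hy)) hy

theorem norm_L {t : Rt D} (ht : D.pairing θ t = 0) : M.Y t ≤ normalizer (QQ M θ : Set G) :=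
  fun u hu => mem_normalizer_fintype fun _ hy => H64.conj_mem_of_gen (fun c hc y hy => by
    simpa using mul_mem (M.comm' (ne_neg hc ht.ge) (QQ M θ) (fun s ⟨i, j, _, hj, e⟩ => le_gen _ (by
      have h1 : 1 ≤ D.pairing θ c := hc
      rw [SQ, Set.mem_setOf_eq, pairing_of_comb θ e, ht]
      nlinarith)) hu hy) (le_gen M.Y hc hy)) hy

section
variable (hθ : M.m θ = 1)
include hθ

theorem cb_Q {r s t : Rt D} (hr : r ∈ SQ θ) (hs : s ∈ SQ θ) (h : Cb r s t) :
    t = θ ∧ rt θ = rt r + rt s := by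
  obtain ⟨i, j, hi, hj, e⟩ := h
  have h1 := pairing_of_comb θ e
  have h2 := MD.pairing_le_two hθ t
  have h3 : 1 ≤ D.pairing θ r := hr
  have h4 : 1 ≤ D.pairing θ s := hs
  have h5 : i ≤ i * D.pairing θ r := by nlinarith
  have h6 : j ≤ j * D.pairing θ s := by nlinarith
  obtain rfl := MD.eq_of_two_le hθ (s := t) (by omega)
  obtain rfl : i = 1 := by omega
  obtain rfl : j = 1 := by omega
  exact ⟨rfl, by simpa using e⟩

theorem SQ_cases {r : Rt D} (hr : r ∈ SQ θ) : D.pairing θ r = 1 ∨ r = θ := by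
  have h3 : 1 ≤ D.pairing θ r := hr
  exact h3.eq_or_lt.imp Eq.symm fun h => MD.eq_of_two_le hθ (by omega)

theorem comm_Y {r s : Rt D} (hr : r ∈ SQ θ) (hs : s ∈ SQ θ) {a c : G} (ha : a ∈ M.Y r)
    (hc : c ∈ M.Y s) : a * c * a⁻¹ * c⁻¹ ∈ M.Y θ :=
  M.comm' (ne_neg hs (zero_le_one.trans hr)) _ (fun _ h => (cb_Q hθ hr hs h).1 ▸ le_rfl) ha hc

theorem commute_Y {r s : Rt D} (hr : r ∈ SQ θ) (hs : s ∈ SQ θ) (h : rt θ ≠ rt r + rt s) {a c : G}
    (ha : a ∈ M.Y r) (hc : c ∈ M.Y s) : a * c = c * a := by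
  have := M.comm' (ne_neg hs (zero_le_one.trans hr)) ⊥ (fun _ e => absurd (cb_Q hθ hr hs e).2 h) ha hc
  rwa [mem_bot, mul_inv_eq_one, mul_inv_eq_iff_eq_mul] at this

theorem cen_Z {z x : G} (hz : z ∈ M.Y θ) (hx : x ∈ QQ M θ) : x * z = z * x :=
  (gen_le (K := centralizer (M.Y θ : Set G)) (fun r hr a ha z hz => (commute_Y hθ hr self_SQ
    (fun e => rt_ne_zero r (by simpa using e)) ha hz).symm) hx z hz).symm

theorem comm_Q {x y : G} (hx : x ∈ QQ M θ) (hy : y ∈ QQ M θ) : x * y * x⁻¹ * y⁻¹ ∈ M.Y θ :=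
  have k : ∀ p ∈ SQ θ, ∀ z ∈ M.Y p, ∀ y ∈ M.Y θ, z * y * z⁻¹ ∈ M.Y θ := fun p hp z hz y hy => by
    rw [cen_Z hθ hy (le_gen M.Y hp hz)]; simpa using hy
  comm_gen k k (fun _ hp _ hr _ ha _ hb => comm_Y hθ hp hr ha hb) hx hy

theorem exists_nf {x : G} (hx : x ∈ QQ M θ) :
    ∃ f : Rt D → G, (∀ r, f r ∈ M.Y r) ∧ x = ((lQ θ).map f).prod := by
  have h : H64.CommUp M.Y (SQ θ) fun r => (D.pairing θ r).toNat := fun r hr s hs _ x hx y hy =>
    M.comm' (ne_neg hs (zero_le_one.trans hr)) _ (fun t e => le_gen _ (by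
      obtain ⟨rfl, e⟩ := cb_Q hθ hr hs e
      have := pairing_add t e
      have h3 : 1 ≤ D.pairing t r := hr
      have h4 : 1 ≤ D.pairing t s := hs
      exact ⟨self_SQ, by dsimp only; omega, by dsimp only; omega⟩)) hx hy
  exact h.exists_prod _ nodup_lQ (fun _ => mem_lQ) hx

theorem exists_dual {r : Rt D} (hr : D.pairing θ r = 1) :
    ∃ s : Rt D, D.pairing θ s = 1 ∧ rt θ = rt r + rt s := by
  obtain ⟨u, hu⟩ := exists_sub_of_pairing_pos (r := θ) (s := r) (by omega)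
    (by rintro rfl; rw [pairing_self] at hr; omega)
  have e : rt θ = rt r + rt (negR u) := by rw [rt_negR, hu]; abel
  have := pairing_add θ e
  rw [pairing_self] at this
  exact ⟨_, by omega, e⟩

theorem Y_le_C {r s : Rt D} (hr : r ∈ SQ θ) (hs : s ∈ SQ θ) (h : rt θ ≠ rt r + rt s) :
    M.Y r ≤ centralizer (M.Y s : Set G) ⊓ QQ M θ :=
  fun _ ha => ⟨fun _ hc => (commute_Y hθ hr hs h ha hc).symm, le_gen M.Y hr ha⟩

theorem Z_le_C {s : Rt D} (hs : s ∈ SQ θ) : M.Y θ ≤ centralizer (M.Y s : Set G) ⊓ QQ M θ :=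
  Y_le_C hθ self_SQ hs fun e => rt_ne_zero s (by simpa using e)

theorem conj_C {s : Rt D} (hs : s ∈ SQ θ) : ∀ x ∈ QQ M θ, ∀ c ∈ centralizer (M.Y s : Set G) ⊓ QQ M θ,
    x * c * x⁻¹ ∈ centralizer (M.Y s : Set G) ⊓ QQ M θ := fun _ hx _ hc => by
  simpa only [inv_mul_cancel_right] using mul_mem (Z_le_C hθ hs (comm_Q hθ hx hc.2)) hc

theorem eq_one_of_C {r s : Rt D} (e : rt θ = rt r + rt s) {a : G} (ha : a ∈ M.Y r)
    (hc : a ∈ centralizer (M.Y s : Set G)) : a = 1 := by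
  by_contra c
  obtain ⟨z, hz, z1⟩ := M.exists_ne_one θ
  obtain ⟨y, hy, e⟩ := M.heis r s θ hθ e a ha c z hz
  rw [hc y hy] at e
  exact z1 (by simpa using e)

omit hθ in
theorem nf_mem {f : Rt D → G} (hf : ∀ r, f r ∈ M.Y r) : ∀ i ∈ lQ θ, f i ∈ QQ M θ :=
  fun i hi => le_gen M.Y (mem_lQ.1 hi) (hf i)

theorem uniq {f g : Rt D → G} (hf : ∀ r, f r ∈ M.Y r) (hg : ∀ r, g r ∈ M.Y r)
    (h : ((lQ θ).map g).prod * (((lQ θ).map f).prod)⁻¹ ∈ M.Y θ) {r : Rt D}
    (hr : D.pairing θ r = 1) : g r = f r := by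
  obtain ⟨s, hs, e⟩ := exists_dual hθ hr
  have h1 := mem_lQ.2 (show r ∈ SQ θ from hr.ge)
  exact mul_inv_eq_one.1 (eq_one_of_C hθ e (mul_mem (hg r) (inv_mem (hf r)))
    (single_mod (conj_C hθ hs.ge) nodup_lQ h1 (nf_mem hf) (nf_mem hg r h1) (fun i hi n =>
      Y_le_C hθ (mem_lQ.1 hi) hs.ge (fun e' => n (rt_inj (add_right_cancel (e'.symm.trans e))))
        (mul_mem (hg i) (inv_mem (hf i)))) (Z_le_C hθ hs.ge h)).1)

theorem surj_Q {x : G} (hx : x ∈ QQ M θ) (h : x ∉ M.Y θ) {z : G} (hz : z ∈ M.Y θ) :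
    ∃ y ∈ QQ M θ, ⁅x, y⁆ = z := by
  classical
  obtain ⟨f, hf, rfl⟩ := exists_nf hθ hx
  obtain ⟨r, hr, f1⟩ : ∃ r : Rt D, D.pairing θ r = 1 ∧ f r ≠ 1 := by
    by_contra! c
    refine h (Subgroup.list_prod_mem _ fun x hx => ?_)
    obtain ⟨i, hi, rfl⟩ := List.mem_map.1 hx
    rcases SQ_cases hθ (mem_lQ.1 hi) with e | rfl
    · rw [c i e]; exact one_mem _
    · exact hf _
  obtain ⟨s, hs, e⟩ := exists_dual hθ hr
  have h1 := mem_lQ.2 (show r ∈ SQ θ from hr.ge)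
  obtain ⟨y, hy, e1⟩ := M.heis r s θ hθ e _ (hf r) f1 _ (inv_mem hz)
  have h2 := prod_mod (conj_C hθ hs.ge) (l := lQ θ) (g := f) (f := fun i => if i = r then f r else 1)
    (fun i _ => by split_ifs; exacts [nf_mem hf r h1, one_mem _]) fun i hi => by
      split_ifs with c
      · simp [c]
      · simpa only [inv_one, mul_one] using Y_le_C hθ (mem_lQ.1 hi) hs.ge
          (fun e' => c (rt_inj (add_right_cancel (e'.symm.trans e)))) (hf i)
  rw [List.prod_map_eq_pow_single r (fun i => if i = r then f r else 1)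
    (fun _ c _ => if_neg c), List.count_eq_one_of_mem nodup_lQ h1, pow_one, if_pos rfl] at h2
  refine ⟨y, le_gen M.Y (show s ∈ SQ θ from hs.ge) hy, ?_⟩
  have e2 := h2.1 y hy
  have e3 := cen_Z hθ (inv_mem hz) h2.2
  generalize ((lQ θ).map f).prod = x at e2 e3 ⊢
  calc ⁅x, y⁆ = x * (y * (x * (f r)⁻¹) * y⁻¹ * (y * f r * y⁻¹))⁻¹ := by group
    _ = x * (x * (f r)⁻¹ * z⁻¹ * f r)⁻¹ := by rw [e1, e2]; group
    _ = z := by rw [e3]; group

theorem card_Q : Nat.card (QQ M θ) = Fintype.card F ^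
    ∑ r ∈ Finset.univ.filter (fun r : Rt D => 1 ≤ D.pairing θ r), M.m r := by
  classical
  let ex : (∀ r : {r : Rt D // 1 ≤ D.pairing θ r}, M.Y r) → Rt D → G := fun f r =>
    if h : 1 ≤ D.pairing θ r then (f ⟨r, h⟩ : G) else 1
  have k : ∀ f r, ex f r ∈ M.Y r := fun f r => by
    simp only [ex]
    split_ifs with h
    exacts [(f ⟨r, h⟩).2, one_mem _]
  rw [← Nat.card_eq_of_bijective (fun f => (⟨((lQ θ).map (ex f)).prod, Subgroup.list_prod_mem _ fun x hx => by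
      obtain ⟨i, hi, rfl⟩ := List.mem_map.1 hx
      exact nf_mem (k f) i hi⟩ : QQ M θ)) ⟨fun f g e => ?_, fun x => ?_⟩, Nat.card_pi,
    Finset.prod_congr rfl fun r _ => M.card r.1, Finset.prod_pow_eq_pow_sum,
    Finset.sum_subtype (p := fun r : Rt D => 1 ≤ D.pairing θ r) (F := inferInstance) _ (by simp)]
  · have e1 : ((lQ θ).map (ex f)).prod * (((lQ θ).map (ex g)).prod)⁻¹ = 1 :=
      mul_inv_eq_one.2 (congrArg Subtype.val e)
    have e2 := fun r => uniq hθ (k g) (k f) (e1 ▸ one_mem _) (r := r)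
    funext ⟨r, hr⟩
    have : ex f r = ex g r := (SQ_cases hθ hr).elim (e2 r) fun c => mul_inv_eq_one.1 (mem_bot.1
      (single_mod (C := ⊥) (by simp) nodup_lQ (mem_lQ.2 hr) (nf_mem (k g))
        (nf_mem (k f) r (mem_lQ.2 hr)) (fun i hi n => by
          rw [e2 i ((SQ_cases hθ (mem_lQ.1 hi)).resolve_right (c ▸ n))]; simp) (e1 ▸ one_mem _)))
    simpa only [ex, dif_pos hr, Subtype.coe_inj] using this
  · obtain ⟨f, hf, e⟩ := exists_nf hθ x.2
    refine ⟨fun r => ⟨f r, hf r⟩, Subtype.ext (e.trans (congrArg _ (List.map_congr_left fun i hi => ?_))).symm⟩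
    simp only [ex, dif_pos (show 1 ≤ D.pairing θ i from mem_lQ.1 hi)]

end

variable (T : M.Top θ b)
include T

theorem rt_θ : rt θ = rt (sref b θ) + rt (simpleR b : Rt D) := by rw [T.rt_β, sub_add_cancel]

theorem p_β : D.pairing θ (sref b θ) = 1 := by
  have := pairing_add θ (rt_θ T)
  rw [pairing_self, T.p1_b] at this
  omega

theorem ht_lt_β {r : Rt D} (hr : D.pairing θ r = 1) (h : r ≠ sref b θ) : ht r < ht (sref b θ) := by
  obtain ⟨s, hs, e⟩ := exists_dual T.mθ hr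
  have h1 := ht_of_add e
  have h2 := ht_of_add (rt_θ T)
  have h3 := pos_iff_ht.1 (T.pos_of_p1 (r := s) (by omega))
  rw [ht_simpleR] at h2
  by_contra c
  obtain ⟨i, rfl⟩ := eq_simpleR_of_ht_eq_one (r := s) (by omega)
  rw [simpleR_val, T.p1] at hs
  obtain rfl : i = b := by by_contra n; simp [n] at hs
  exact h (rt_inj (add_right_cancel (e.symm.trans (rt_θ T))))

theorem z2_of_tab (tab : ∀ r : Rt D, D.pairing θ r = 1 → r = sref b θ ∨ ∃ t γ : Rt D, Pos t ∧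
    D.pairing θ t = 0 ∧ M.m γ = 1 ∧ rt γ = rt r + rt t) : Z2 M θ b := by
  classical
  intro y hy h
  obtain ⟨f, hf, rfl⟩ := exists_nf T.mθ hy
  by_contra c
  obtain ⟨r0, h0, n0, f0⟩ : ∃ r : Rt D, D.pairing θ r = 1 ∧ r ≠ sref b θ ∧ f r ≠ 1 := by
    by_contra! k
    refine c (Subgroup.list_prod_mem _ fun x hx => ?_)
    obtain ⟨i, hi, rfl⟩ := List.mem_map.1 hx
    rcases SQ_cases T.mθ (mem_lQ.1 hi) with e | rfl
    · by_cases n : i = sref b θ
      · exact mem_sup_right (n ▸ hf i)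
      · rw [k i e n]; exact one_mem _
    · exact mem_sup_left (hf _)
  obtain ⟨r, hr, mn⟩ := Finset.exists_min_image
    (Finset.univ.filter fun r : Rt D => D.pairing θ r = 1 ∧ f r ≠ 1) ht ⟨r0, by simp [h0, f0]⟩
  simp only [Finset.mem_filter, Finset.mem_univ, true_and] at hr mn
  obtain ⟨t, γ, t1, t2, g1, e⟩ := (tab r hr.1).resolve_left (by
    rintro rfl
    exact absurd (mn r0 ⟨h0, f0⟩) (ht_lt_β T h0 n0).not_ge)
  have g2 : D.pairing θ γ = 1 := by rw [pairing_add θ e, hr.1, t2]; rfl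
  obtain ⟨s, hs, es⟩ := exists_dual T.mθ g2
  obtain ⟨x, hx, x1⟩ := M.exists_ne_one γ
  obtain ⟨u, hu, e1⟩ := M.heis r t γ g1 e _ (hf r) hr.2 x hx
  have h1 := mem_lQ.2 (show r ∈ SQ θ from hr.1.ge)
  have h2 := single_mod (conj_C T.mθ hs.ge) nodup_lQ h1 (nf_mem hf) (g := fun i => u * f i * u⁻¹)
    (H98.conj_mem_of_mem_normalizer (norm_L t2 hu) (nf_mem hf r h1)) (fun i hi n => by
      by_cases f1 : f i = 1
      · simp [f1]
      have i1 : 1 ≤ D.pairing θ i := mem_lQ.1 hi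
      refine M.comm' (ne_neg i1 t2.ge) _ (fun k ⟨a, j, ha, hj, ek⟩ => ?_) hu (hf i)
      have p1 := pairing_of_comb θ ek
      rw [t2] at p1
      refine Y_le_C T.mθ (show 1 ≤ D.pairing θ k by nlinarith) hs.ge fun e' => ?_
      obtain rfl : k = γ := rt_inj (add_right_cancel (e'.symm.trans es))
      have j1 : j ≤ j * D.pairing θ i := by nlinarith
      obtain rfl : j = 1 := by omega
      have a1 := ht_of_eq ek
      have a2 := ht_of_add e
      have a3 := mn i ⟨by omega, f1⟩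
      have a4 := pos_iff_ht.1 t1
      obtain rfl : a = 1 := by nlinarith
      exact n (rt_inj (add_right_cancel (b := rt t) (by rw [← e, ek]; module)))) (by
      have := map_list_prod (MulAut.conj u) ((lQ θ).map f)
      rw [List.map_map] at this
      exact Z_le_C T.mθ hs.ge ((congrArg (· * _ ∈ M.Y θ) this).mp (h t t1 t2 u hu)))
  refine x1 (eq_one_of_C T.mθ es hx ?_)
  simpa only [e1, mul_inv_cancel_right] using (mem_inf.1 h2).1

/-- The simply laced case. -/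
theorem z2_of_long (h : ∀ r, M.m r = 1) : Z2 M θ b := z2_of_tab T fun r hr => by
  obtain ⟨i, hi⟩ := (T.dom r (h r)).resolve_left (by rintro rfl; rw [pairing_self] at hr; omega)
  have rp := T.pos_of_p1 (r := r) (by omega)
  have h1 := (MD.pairing_bd (h (simpleR i)) (s := r) (by rintro rfl; rw [cartan_self] at hi; omega)
    (ne_negR (pos_simpleR i) rp)).1
  rw [pairing_simpleR] at h1
  by_cases c : i = b
  · exact .inl (T.eq_β hr (by rw [← c]; omega))
  · refine .inr ⟨simpleR i, sref i r, pos_simpleR i, by simp [T.p1, c], h _, ?_⟩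
    rw [rt_sref, rt_simpleR, show D.cartan i r = -1 by omega]
    module

/-- Chapter B is empty. -/
theorem kill {p : ℕ} [hp : Fact p.Prime] [CharP F p] {Ω : Type} [MulAction G Ω] [Finite Ω]
    (h : CB p G Ω) (U : Sylow p G) (hU : (U : Subgroup G) = gen M.Y {r | Pos r}) {P : Subgroup G}
    (hB : normalizer ((U : Subgroup G) : Set G) ≤ P) (hP : P ≤ normalizer (M.Y θ : Set G))
    {d r0 : ℕ} (hd : 2 ≤ d) (h0 : 0 < r0) (hi : P.index * (Fintype.card F - 1) =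
      (Fintype.card F * Fintype.card F ^ (d + 1) - 1) * r0)
    (hr : (Fintype.card F - 1) * r0 + 1 < Fintype.card F ^ (d + 1))
    (hs : ∑ r ∈ Finset.univ.filter (fun r : Rt D => 1 ≤ D.pairing θ r), M.m r = 2 * d + 1)
    (h3 : ∀ i, M.m (simpleR i) ≠ 1 → T3 M (simpleR i)) (hz : Z2 M θ b) : False := by
  obtain ⟨⟨f, hf⟩, -, hq⟩ := FiniteField.card F p
  replace hq : Fintype.card F = p ^ f := hq
  have q1 : 1 < Fintype.card F := Fintype.one_lt_card
  have c1 : ∀ r, M.m r = 1 → Nat.card (M.Y r) = p ^ f := fun r e => by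
    rw [M.card, e, pow_one, hq]
  have yU : ∀ r, Pos r → M.Y r ≤ U := fun r hr => hU ▸ le_gen M.Y hr
  have qU : QQ M θ ≤ U := gen_le fun r hr => yU r (T.pos_of_p1 (zero_lt_one.trans_le hr))
  have bS : sref b θ ∈ SQ θ := (p_β T).ge
  have aS : simpleR b ∈ SQ θ := T.p1_b.ge
  have ln := line h U (hB.trans hP) (W := M.Y (sref b θ)) (X := M.Y (simpleR b)) (k := M.n b)
    (ext fun y => by rw [mem_cj, M.n_conj b θ]; simp [mul_assoc]) hf (c1 _ T.mθ) (c1 _ T.mb)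
    (sup_le (yU _ T.pos) ((le_gen M.Y bS).trans qU))
    (eq_bot_iff.2 fun a ha => eq_one_of_C T.mθ (rt_θ T) ha.2 (Z_le_C T.mθ aS ha.1).1)
    (fun a ha => mem_normalizer_fintype fun z hz => by
      rw [cen_Z T.mθ hz (le_gen M.Y bS ha)]; simpa using hz)
    (fun y hy a ha => comm_Y T.mθ aS bS hy ha) (M.heis _ _ _ T.mθ (rt_θ T))
  have fp : ∀ a : Ω, stabilizer G a ⊓ M.Y θ = ⊥ := fun a => by simpa [H98.cj_one] using (ln a).1 1
  have cQ := card_Q T.mθ
  rw [hs] at cQ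
  have sm := special_mod hp.out hf (le_gen M.Y self_SQ) (fun z hz x hx => cen_Z T.mθ hz hx)
    (fun x hx y hy => comm_Q T.mθ hx hy) (fun x hx n z hz => surj_Q T.mθ hx n hz) (c1 _ T.mθ)
    (hq ▸ cQ) fp
  rw [← hq] at sm
  haveI := h.toAct.nontrivial
  obtain ⟨a⟩ : Nonempty Ω := inferInstance
  obtain ⟨z, hz1, z1⟩ := M.exists_ne_one θ
  have hn := arith (sm a).2.2 h.toAct.two_le (hi ▸ (h.toAct.chi fun a e =>
    z1 (mem_bot.1 (fp a ▸ ⟨e, hz1⟩))).trans (by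
      have := index_cen_dvd hP hz1 z1 fun y hy y1 =>
        let ⟨g, g1, g2⟩ := t3_long T.mθ z hz1 z1 y hy y1
        ⟨g, mem_normalizer_iff.2 (g1 θ), g2⟩
      rwa [c1 _ T.mθ, ← hq] at this)) h0 q1 hr
  have tr := h.toAct.ppow_trans (p := p) (k := f * (d + 2)) (by rw [hn, pow_mul, ← hq]; ring) U
  have uN : (U : Subgroup G) ≤ normalizer (QQ M θ : Set G) := hU ▸ gen_le fun r hr => by
    have : 0 ≤ D.pairing θ r := T.p1_eq r ▸ hr b
    rcases this.eq_or_lt with e | e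
    · exact norm_L e.symm
    · exact (le_gen M.Y (show r ∈ SQ θ from e)).trans le_normalizer
  have k1 := qorb (fun a b => let ⟨t, h1, h2⟩ := tr a b; ⟨t, uN h1, h2⟩) le_normalizer le_rfl a
  have k2 : (QQ M θ ⊔ (stabilizer G a ⊓ normalizer (QQ M θ : Set G))).relIndex
      (normalizer (QQ M θ : Set G)) ≤ Fintype.card F := by
    refine Nat.le_of_mul_le_mul_right ?_ (pow_pos (zero_lt_one.trans q1) (d + 1))
    rw [← hn, ← k1]
    exact Nat.mul_le_mul_left _ (Nat.le_of_dvd (Nat.pos_of_ne_zero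
      (index_ne_zero_of_finite (H := (stabilizer G a).subgroupOf (QQ M θ)))) (sm a).2.1)
  have k3 : (U : Subgroup G) ≤ QQ M θ ⊔ (stabilizer G a ⊓ normalizer (QQ M θ : Set G)) :=
    hU ▸ gen_le fun r hr => by
    have : 0 ≤ D.pairing θ r := T.p1_eq r ▸ hr b
    rcases this.eq_or_lt with e | e
    swap
    · exact (le_gen M.Y (show r ∈ SQ θ from e)).trans le_sup_left
    have m1 := M.one_le_m r
    refine le_of_idx (norm_L e.symm) (fun x hx x1 y hy y1 =>
      let ⟨g, g1, g2⟩ := t3_all h3 r x hx x1 y hy y1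
      ⟨g, g1.norm _, g2⟩) (k2.trans (M.card r ▸ Nat.le_self_pow (by omega) _)) ?_
    rcases m1.eq_or_lt with m | m
    swap
    · exact .inl (k2.trans_lt (M.card r ▸ lt_self_pow₀ q1 m))
    have n1 : r ≠ simpleR b := by rintro rfl; rw [T.p1_b] at e; omega
    have n2 := (MD.pairing_bd T.mb n1 (ne_negR (pos_simpleR b) hr)).1
    have n3 := cartan_nonpos hr (i := b) (by rw [← T.p1_eq, ← e])
    rw [pairing_simpleR] at n2
    obtain ⟨s, t, e1, e2, -, e3, -⟩ := T.split m.symm (by omega)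
    obtain ⟨x, hx, x1⟩ := M.exists_ne_one s
    have cm : ∀ {s : Rt D}, 0 ≤ D.pairing r s → ∀ x ∈ M.Y s, ∀ z ∈ M.Y r, z * x = x * z :=
      fun {s} hs x hx z hz => by
      have := M.comm' (r := s) (s := r) (fun c => by
        rw [c, negR_val, pairing_negR_left, pairing_self] at hs; omega) ⊥
        (fun t ht => absurd ht (MD.not_cb m.symm hs)) hx hz
      rwa [mem_bot, mul_inv_eq_one, mul_inv_eq_iff_eq_mul, eq_comm] at this
    have p1 := pairing_add r e1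
    have p2 := MD.pairing_le_two m.symm t
    rw [pairing_self] at p1
    exact .inr ⟨cm (by rw [pairing_self]; omega), x, norm_L (e2.trans e.symm) hx, cm (by omega) x hx,
      fun z hz => let ⟨y, hy, e⟩ := M.heis s t r m.symm e1 x hx x1 z hz; ⟨y, norm_L e3 hy, e⟩⟩
  have dec : ∀ u ∈ (U : Subgroup G), ∃ x ∈ QQ M θ, ∃ k ∈ stabilizer G a, u = x * k := fun u hu =>
    let ⟨x, hx, k, hk, e⟩ := (H98.mem_sup_right_norm inf_le_right).1 (k3 hu)
    ⟨x, hx, k, hk.1, e⟩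
  have k4 := relIndex_of_trans (T := QQ M θ) (a := a) fun c => by
    obtain ⟨u, hu, rfl⟩ := tr a c
    obtain ⟨x, hx, k, hk, rfl⟩ := dec u hu
    exact ⟨x, hx, by rw [mul_smul, hk]⟩
  have k5 := ((stabilizer G a ⊓ QQ M θ).subgroupOf (QQ M θ)).card_mul_index
  rw [Nat.card_congr (subgroupOfEquivOfLe inf_le_right).toEquiv, cQ, inf_subgroupOf_right,
    show ((stabilizer G a).subgroupOf (QQ M θ)).index = _ from k4, hn] at k5
  obtain ⟨e, rfl⟩ := Nat.exists_eq_add_of_le' hd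
  have k6 : Nat.card ↥(stabilizer G a ⊓ QQ M θ) = Fintype.card F ^ (e + 1) :=
    Nat.eq_of_mul_eq_mul_right (by positivity) (k5.trans (by ring))
  obtain ⟨y, hy, y1, cy⟩ := exists_fix (A := stabilizer G a ⊓ U) (U.isPGroup'.to_le inf_le_right)
    (H98.le_normalizer_inf (inf_le_left.trans le_normalizer) (inf_le_right.trans uN))
    (k6 ▸ dvd_pow (hq ▸ dvd_pow_self p hf.ne') e.succ_ne_zero)
  refine y1 (mem_bot.1 ((ln a).2 ▸ ⟨hy.1, hz y hy.2 fun t t1 _ u hu => ?_⟩))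
  obtain ⟨x, hx, k, hk, rfl⟩ := dec u (yU t t1 hu)
  have := cy k ⟨hk, (mul_mem_cancel_left (qU hx)).1 (yU t t1 hu)⟩
  rw [mul_assoc x, this, mul_inv_rev, ← mul_assoc, ← mul_assoc, mul_inv_cancel_right]
  exact comm_Q T.mθ hx hy.2

end H45.CK
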