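/- CKS (S2193): chapter B for E6, E7, E8. -/
import Cfsg.Agent.H45.CKMD
import Cfsg.Agent.H2.MX10
import Cfsg.Agent.H67.LieInst

set_option autoImplicit false
set_option linter.unusedSectionVars false

namespace H45.CK
open Subgroup MulAction H32.CK H2.MX H63 Cfsg.Lie
open H64 (gen le_gen gen_le)

theorem split_kill {D : ChevalleyDatum} [RS D] [H65.Tab D] [H65.Comm D] {p : ℕ} [Fact p.Prime]
    {F : Type} [Field F] [Fintype F] [CharP F p] (hl : ∀ r : Rt D, len r = 1)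
    (hp : ∀ r : Rt D, ∃ s : Rt D, D.pairing s r = 1) {θ : Rt D} {b : Fin D.rank}
    (p1 : ∀ i : Fin D.rank, D.pairing θ (D.simple i) = if i = b then 1 else 0)
    (dom : ∀ r, r = θ ∨ ∃ i : Fin D.rank, D.cartan i r < 0)
    (nb : ∀ r : Rt D, (D.cartan b r = 0 ∧ 0 ≤ D.pairing θ r ∨
      D.cartan b r = -1 ∧ D.pairing θ r = 0) → ∃ i : Fin D.rank, D.cartan b (D.simple i) = 0 ∧
        (D.pairing r (D.simple i) = 1 ∨ D.pairing r (D.simple i) = -1))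
    {J : List ℕ} {Ls : List (List (List ℤ))} (hs : stepOK D b J Ls = true)
    (hJ : ∀ i < D.rank, i ∈ (b : ℕ) :: J) (hb : (b : ℕ) ∉ J) {d : ℕ} (hd : 2 ≤ d)
    (hc : ∑ _r ∈ Finset.univ.filter (fun r : Rt D => 1 ≤ D.pairing θ r), 1 = 2 * d + 1)
    (hr : ∀ x : ℕ, ∃ r0, 0 < r0 ∧ horner (x + 2) (1 :: Ls.map List.length) * (x + 1) + r0 =
      (x + 2) * (x + 2) ^ (d + 1) * r0 ∧ (x + 1) * r0 + 1 < (x + 2) ^ (d + 1)) :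
    ChB p (D.group F) := of_false fun Ω _ _ _ hG => by
  have h := stB_xG (D := D) (F := F) H64.matOK
  let M := mdSplit h hl hp
  have T : M.Top θ b := ⟨rfl, rfl, p1, fun r _ => dom r, fun r _ => nb r⟩
  have hU : ((H67.chevSBN D F p).sylow : Subgroup (D.group F)) = h.rgd.U := by
    rw [H67.SBN.coe_sylow, H67.chevSBN_U]
    refine (eq_of_le_of_card_ge (gen_le fun r hr y hy => ?_) (le_of_eq ?_)).symm
    · obtain ⟨t, rfl⟩ := h.toSt.mem_XR.1 hy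
      exact (H67.chevM D F).X_le_U hr (H64.x_mem_XR D _ r t)
    · change _ = Nat.card h.rgd.U
      rw [h.card_U, ← (H68.stB_xU (D := D) (K := F)).card_U]
      exact Nat.card_congr (subgroupOfEquivOfLe
        ((H67.chevM D F).U_le_Gp.trans (H67.chevM_Gp D F).ge)).toEquiv
  obtain ⟨x, hx⟩ := Nat.exists_eq_add_of_le' (Fintype.one_lt_card (α := F))
  obtain ⟨r0, h0, h1, h2⟩ := hr x
  refine kill T hG _ hU (P := h.rgd.PJ (JL D J)) (fun g hg => h.rgd.B_le_PJ _ ?_) ?_ hd h0 ?_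
    (by rw [hx]; exact h2) hc (fun _ c => absurd rfl c) (z2_of_long T fun _ => rfl)
  · rw [← h.rgd.normalizer_U_inf, h.rgd_Gp, GG_xG, inf_top_eq, ← hU]; exact hg
  · rw [h.rgd.PJ_eq_gen]
    refine sup_le (fun g hg => mem_normalizer_fintype fun y hy =>
      h.rgd.h_conj g hg θ y hy) (gen_le fun s hs => T.le_normalizer ?_)
    exact hs.elim (fun e => e b) fun e => (H64.mem_PhiJ_iff.1 e b hb).ge
  · rw [index_PJ h GG_xG hs hJ, hx, Nat.sub_mul, one_mul]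
    exact Nat.eq_sub_of_add_eq h1

theorem jobE6 : JobE6 := fun p _ F _ _ _ => by
  have := H65.tabE6
  have := H65.commE6
  refine split_kill (by decide +kernel) (by decide +kernel) (θ := ⟨71, by decide⟩)
    (b := ⟨1, by decide⟩) (by decide +kernel) (by decide +kernel) (by decide +kernel) stepE6
    (by decide) (by decide) (d := 10) (by decide) (by decide +kernel) fun x =>
    ⟨((x + 2) ^ 4 + 1) * ((x + 2) ^ 6 + (x + 2) ^ 3 + 1), by positivity, ?_, ?_⟩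
  · rw [lenE6]
    simp only [horner]
    push_cast
    ring
  · zify
    rw [← sub_pos]
    ring_nf
    positivity

/-- the cosets of `W(D₆)` in `W(E₇)` -/
def levE7 : List (List (List ℤ)) :=
  [[[-1, 0, 1, 0, 0, 0, 0]], [[0, 0, -1, 1, 0, 0, 0]], [[0, 1, 0, -1, 1, 0, 0]], [[0, -1, 0, 0, 1, 0, 0], [0, 1, 0, 0, -1, 1, 0]], [[0, -1, 0, 1, -1, 1, 0], [0, 1, 0, 0, 0, -1, 1]], [[0, 0, 1, -1, 0, 1, 0], [0, -1, 0, 1, 0, -1, 1], [0, 1, 0, 0, 0, 0, -1]], [[1, 0, -1, 0, 0, 1, 0], [0, 0, 1, -1, 1, -1, 1], [0, -1, 0, 1, 0, 0, -1]], [[-1, 0, 0, 0, 0, 1, 0], [1, 0, -1, 0, 1, -1, 1], [0, 0, 1, 0, -1, 0, 1], [0, 0, 1, -1, 1, 0, -1]], [[-1, 0, 0, 0, 1, -1, 1], [1, 0, -1, 1, -1, 0, 1], [1, 0, -1, 0, 1, 0, -1], [0, 0, 1, 0, -1, 1, -1]], [[-1, 0, 0, 1, -1, 0, 1], [-1, 0, 0, 0, 1, 0, -1], [1, 1, 0, -1, 0, 0, 1], [1, 0, -1, 1, -1, 1, -1], [0,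 0, 1, 0, 0, -1, 0]], [[-1, 1, 1, -1, 0, 0, 1], [-1, 0, 0, 1, -1, 1, -1], [1, -1, 0, 0, 0, 0, 1], [1, 1, 0, -1, 0, 1, -1], [1, 0, -1, 1, 0, -1, 0]], [[-1, -1, 1, 0, 0, 0, 1], [0, 1, -1, 0, 0, 0, 1], [-1, 1, 1, -1, 0, 1, -1], [-1, 0, 0, 1, 0, -1, 0], [1, -1, 0, 0, 0, 1, -1], [1, 1, 0, -1, 1, -1, 0]], [[0, -1, -1, 1, 0, 0, 1], [-1, -1, 1, 0, 0, 1, -1], [0, 1, -1, 0, 0, 1, -1], [-1, 1, 1, -1, 1, -1, 0], [1, -1, 0, 0, 1, -1, 0], [1, 1, 0, 0, -1, 0, 0]], [[0, 0, 0, -1, 1, 0, 1], [0, -1, -1, 1, 0, 1, -1], [-1, -1, 1, 0, 1, -1, 0], [0, 1, -1, 0, 1, -1, 0], [-1, 1, 1, 0, -1, 0, 0], [1, -1, 0, 1, -1, 0, 0]], [[0, 0, 0, 0, -1, 1, 1], [0, 0, 0, -1, 1, 1, -1], [0, -1, -1, 1, 1, -1, 0], [-1, -1, 1, 1, -1, 0, 0], [0, 1, -1, 1, -1, 0, 0], [1, 0, 1, -1, 0, 0, 0]], [[0, 0, 0, 0, 0, -1, 2], [0, 0, 0, 0, -1, 2, -1], [0, 0, 0, -1, 2, -1, 0],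 [0, -1, -1, 2, -1, 0, 0], [-1, 0, 2, -1, 0, 0, 0], [0, 2, 0, -1, 0, 0, 0], [2, 0, -1, 0, 0, 0, 0]], [[0, 0, 0, 0, 0, 1, -2], [0, 0, 0, 0, 1, -2, 1], [0, 0, 0, 1, -2, 1, 0], [0, 1, 1, -2, 1, 0, 0], [1, 0, -2, 1, 0, 0, 0], [0, -2, 0, 1, 0, 0, 0], [-2, 0, 1, 0, 0, 0, 0]], [[0, 0, 0, 0, 1, -1, -1], [0, 0, 0, 1, -1, -1, 1], [0, 1, 1, -1, -1, 1, 0], [0, -1, 1, -1, 1, 0, 0], [1, 1, -1, -1, 1, 0, 0], [-1, 0, -1, 1, 0, 0, 0]], [[0, 0, 0, 1, -1, 0, -1], [0, 1, 1, -1, 0, -1, 1], [0, -1, 1, 0, -1, 1, 0], [1, 1, -1, 0, -1, 1, 0], [1, -1, -1, 0, 1, 0, 0], [-1, 1, 0, -1, 1, 0, 0]], [[0, 1, 1, -1, 0, 0, -1], [0, -1, 1, 0, 0, -1, 1], [1, 1, -1, 0, 0, -1, 1], [1, -1, -1, 1, -1, 1, 0], [-1, 1, 0, 0, -1, 1, 0], [-1, -1, 0, 0, 1, 0, 0]], [[0, -1, 1, 0, 0, 0, -1], [1, 1, -1, 0, 0, 0, -1], [1, -1, -1, 1, 0, -1, 1], [-1, 1, 0, 0, 0, -1, 1], [-1,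 -1, 0, 1, -1, 1, 0], [1, 0, 0, -1, 0, 1, 0]], [[1, -1, -1, 1, 0, 0, -1], [-1, 1, 0, 0, 0, 0, -1], [-1, -1, 0, 1, 0, -1, 1], [1, 0, 0, -1, 1, -1, 1], [-1, 0, 1, -1, 0, 1, 0]], [[-1, -1, 0, 1, 0, 0, -1], [1, 0, 0, -1, 1, 0, -1], [-1, 0, 1, -1, 1, -1, 1], [1, 0, 0, 0, -1, 0, 1], [0, 0, -1, 0, 0, 1, 0]], [[-1, 0, 1, -1, 1, 0, -1], [1, 0, 0, 0, -1, 1, -1], [0, 0, -1, 0, 1, -1, 1], [-1, 0, 1, 0, -1, 0, 1]], [[0, 0, -1, 0, 1, 0, -1], [-1, 0, 1, 0, -1, 1, -1], [1, 0, 0, 0, 0, -1, 0], [0, 0, -1, 1, -1, 0, 1]], [[0, 0, -1, 1, -1, 1, -1], [-1, 0, 1, 0, 0, -1, 0], [0, 1, 0, -1, 0, 0, 1]], [[0, 1, 0, -1, 0, 1, -1], [0, 0, -1, 1, 0, -1, 0], [0, -1, 0, 0, 0, 0, 1]], [[0, -1, 0, 0, 0, 1, -1], [0, 1, 0, -1, 1, -1, 0]], [[0, -1, 0, 0, 1, -1, 0], [0, 1, 0, 0, -1, 0, 0]], [[0, -1, 0, 1, -1, 0, 0]], [[0, 0, 1, -1, 0, 0, 0]], [[1, 0, -1, 0,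 0, 0, 0]], [[-1, 0, 0, 0, 0, 0, 0]]]
theorem stepE7 : stepOK chevE7 0 [6, 5, 4, 3, 2, 1] levE7 = true := by decide +kernel
theorem lenE7 : levE7.map List.length =
    [1, 1, 1, 2, 2, 3, 3, 4, 4, 5, 5, 6, 6, 6, 6, 7, 7, 6, 6, 6, 6, 5, 5, 4, 4, 3, 3, 2, 2, 1, 1, 1, 1] := by decide +kernel

theorem jobE7 : JobE7 := fun p _ F _ _ _ => by
  have := H65.tabE7
  have := H65.commE7
  refine split_kill (by decide +kernel) (by decide +kernel) (θ := ⟨125, by decide⟩)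
    (b := ⟨0, by decide⟩) (by decide +kernel) (by decide +kernel) (by decide +kernel) stepE7
    (by decide) (by decide) (d := 16) (by decide) (by decide +kernel) fun x =>
    ⟨(x + 2) ^ 16 + (x + 2) ^ 12 + (x + 2) ^ 10 + (x + 2) ^ 8 + (x + 2) ^ 6 + (x + 2) ^ 4 + 1, by positivity, ?_, ?_⟩
  · rw [lenE7]
    simp only [horner]
    push_cast
    ring
  · zify
    rw [← sub_pos]
    ring_nf
    positivity

theorem jobE8 : JobE8 := fun p _ F _ _ _ => by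
  have := H65.tabE8
  have := H65.commE8
  refine split_kill (by decide +kernel) (by decide +kernel) (θ := ⟨239, by decide⟩)
    (b := ⟨7, by decide⟩) (by decide +kernel) (by decide +kernel) (by decide +kernel) stepE8_7
    (by decide) (by decide) (d := 28) (by decide) (by decide +kernel) fun x =>
    ⟨((x + 2) ^ 12 + 1) * ((x + 2) ^ 10 + 1) * ((x + 2) ^ 6 + 1), by positivity, ?_, ?_⟩
  · rw [lenE8_7]
    simp only [horner]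
    push_cast
    ring
  · zify
    rw [← sub_pos]
    ring_nf
    positivity

end H45.CK
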