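/- CKS (S2193): chapter B for the twisted groups of types E6 and D4. -/
import Cfsg.Agent.H45.CKMD
import Cfsg.Agent.H2.MX13
import Cfsg.Agent.H67.LieInst

set_option autoImplicit false
set_option linter.unusedSectionVars false

namespace H45.CK
open Subgroup MulAction H32.CK H2.MX H63 Cfsg.Lie H68
open H64 (gen le_gen gen_le gen_mono)
open H65 (xU)

theorem surj_of_card {G α : Type*} [Group G] [Finite G] [Finite α] {Y : Subgroup G} {f : α → G}
    (hf : Function.Injective f) (h1 : ∀ a, f a ∈ Y) (h2 : ∀ a, f a ≠ 1)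
    (hc : Nat.card Y - 1 = Nat.card α) {y : G} (hy : y ∈ Y) (y1 : y ≠ 1) : ∃ a, f a = y := by
  obtain ⟨l, e⟩ := (Function.Injective.bijective_of_nat_card_le (f := fun a =>
    (⟨⟨f a, h1 a⟩, fun e => h2 a (congrArg Subtype.val e)⟩ : {y : Y // y ≠ 1}))
    (fun a b e => hf (congrArg (fun u => u.1.1) e)) (by
      have := Finite.card_subtype_lt (p := fun y : Y => y ≠ 1) (x := 1) (by simp)
      omega)).2 ⟨⟨y, hy⟩, fun e => y1 (congrArg Subtype.val e)⟩
  exact ⟨l, congrArg (fun u => u.1.1) e⟩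

section tw
variable {D D' : ChevalleyDatum} [RS D] [RS D'] [H65.Tab D] [H65.Comm D] {K : Type} [Field K]
  [Fintype K] {Ω : Type} {τ : Tw (rd D) Ω} {S : SM (mat D K) τ} {F : Type} [Field F] [Fintype F]
  {A : Subgroup (GL D.Idx K)} (W : TW D D' K S F A)

theorem gen_Y_le (T : Set (Rt D')) :
    gen W.Y T ≤ (gen (mat D K).T.X {s | W.π s ∈ T}).subgroupOf A :=
  gen_le fun t ht _ hy => gen_mono _ (fun s (hs : W.π s = t) => show W.π s ∈ T from hs ▸ ht) hy

theorem t3_tw {k : Rt D'} (kp : Pos k) (hc : Fintype.card F ^ W.m k = Fintype.card K)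
    (h : ∀ r, W.π r = k → ∀ l : Kˣ, ∃ c, (mat D K).tor c ∈ A ∧ CM.chi c r = l) : T3 W.md k := by
  intro x hx x1 y hy y1
  obtain ⟨z, hz, e1⟩ := W.exists_co (g := x) hx
  obtain ⟨r, hr, z1⟩ : ∃ r ∈ W.fl k, z r ≠ 1 := by
    by_contra! c
    exact x1 (Subtype.ext (e1.trans (List.prod_eq_one fun g hg => by
      obtain ⟨s, hs, rfl⟩ := List.mem_map.1 hg; exact c s hs)))
  obtain ⟨t, ht⟩ := ((mat D K).mem_X r _).1 (hz r)
  have t0 : t ≠ 0 := by rintro rfl; exact z1 (ht.trans ((mat D K).x_zero _))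
  choose c hA hc' using h r (W.mem_fl.1 hr)
  obtain ⟨g, hg⟩ : ∃ g : Kˣ → A, ∀ l, (g l : GL D.Idx K) = (mat D K).tor (c l) :=
    ⟨fun l => ⟨_, hA l⟩, fun _ => rfl⟩
  have tr : ∀ l, Tor W.md (g l) := fun l s y => by
    have := W.norm_H ((mat D K).tor_mem (c l)) s y
    rw [← hg] at this
    exact this
  have key : ∀ l, (mat D K).tor (c l) * x * ((mat D K).tor (c l))⁻¹ = ((W.fl k).map
      fun s => (mat D K).tor (c l) * z s * ((mat D K).tor (c l))⁻¹).prod := fun l => by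
    rw [e1]
    exact (map_list_prod (MulAut.conj ((mat D K).tor (c l))) _).trans (by rw [List.map_map]; rfl)
  have hf : ∀ l m, g l * x * (g l)⁻¹ = g m * x * (g m)⁻¹ → l = m := fun l m e => by
    have e2 := congrArg Subtype.val e
    simp only [coe_mul, coe_inv, hg, key] at e2
    have e3 := (mat D K).prod_unique' _ (W.nodup_fl k)
      (.inl fun r hr => W.π_pos.1 (W.mem_fl.1 hr ▸ kp))
      (fun s => (mat D K).T.h_conj _ ((mat D K).tor_mem _) s _ (hz s))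
      (fun s => (mat D K).T.h_conj _ ((mat D K).tor_mem _) s _ (hz s)) e2 r hr
    rw [ht, (mat D K).tor_conj' _ r.2, (mat D K).tor_conj' _ r.2, hc', hc'] at e3
    exact Units.ext (mul_right_cancel₀ t0 ((mat D K).x_inj r e3))
  obtain ⟨l, e⟩ := surj_of_card (Y := W.md.Y k) (f := fun l => g l * x * (g l)⁻¹) hf
    (fun l => (tr l k x).1 hx) (fun l e => x1 (by simpa using e)) (by
      rw [W.md.card, Nat.card_units, Nat.card_eq_fintype_card (α := K), ← hc]; rfl) hy y1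
  exact ⟨_, tr l, e⟩

theorem exists_wd_Q {θ : Rt D'} {b : Fin D'.rank} (T : W.md.Top θ b) (L : List ℕ) (hn : L.Nodup)
    (hL : ∀ r ∈ L, r < D.nroots) (h : ∀ r : Rt D, (r : ℕ) ∈ L ↔ W.π r ∈ SQ θ) {y : A}
    (hy : y ∈ QQ W.md θ) : ∃ w : List (ℕ × K), w.map Prod.fst = L ∧
      (y : GL D.Idx K) = (mat D K).wd w :=
  (mat D K).exists_wd_aux L hL ((commUp_of_comb (st_xU (D := D) (K := K))
    (S := {s | W.π s ∈ SQ θ}) (fun r hr => W.π_pos.1 (T.pos_of_p1 (zero_lt_one.trans_le hr)))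
    (fun r hr s hs c i j hi hj e => by
      have h1 : 1 ≤ D'.pairing θ (W.π r) := hr
      have h2 : 1 ≤ D'.pairing θ (W.π s) := hs
      have h3 := pairing_of_comb θ (W.π_comb e)
      change 1 ≤ D'.pairing θ (W.π c)
      nlinarith)).exists_prod _ (hn.pmap fun _ _ _ _ h => congrArg Fin.val h) (fun a => by
      rw [Set.mem_ofPred_eq, ← h, List.mem_pmap]
      exact ⟨fun ⟨r, hr, e⟩ => e ▸ hr, fun h => ⟨a, h, rfl⟩⟩) (gen_Y_le W _ hy))

theorem tw_kill {p : ℕ} [Fact p.Prime] [CharP K p] {θ : Rt D'} {b : Fin D'.rank}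
    (T : W.md.Top θ b) {J : Set (Fin D.rank)} (hJ : ∀ i, W.orb i = b → i ∉ J) {d r0 x : ℕ}
    (hx : Fintype.card F = x + 2) (hd : 2 ≤ d) (h0 : 0 < r0)
    (hi : (((mat D K).T.PJ J).subgroupOf A).index * (x + 1) + r0 =
      (x + 2) * (x + 2) ^ (d + 1) * r0) (hr : (x + 1) * r0 + 1 < (x + 2) ^ (d + 1))
    (hs : ∑ r ∈ Finset.univ.filter (fun r : Rt D' => 1 ≤ D'.pairing θ r), W.m r = 2 * d + 1)
    (h3 : ∀ i, W.m (simpleR i) ≠ 1 → T3 W.md (simpleR i)) (hz : Z2 W.md θ b) : ChB p A :=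
  of_false fun Δ _ _ _ hG => by
  have : CharP F p := (W.ι.charP_iff_charP p).2 inferInstance
  have hθ : W.m θ = 1 := T.mθ
  have hP : (mat D K).T.PJ J ≤ normalizer (W.Z θ : Set (GL D.Idx K)) := by
    rw [(mat D K).T.PJ_eq_gen]
    refine sup_le (fun g hg => mem_normalizer_iff.2 (W.norm_H hg θ))
      (gen_le fun s hs g hg => mem_normalizer_fintype fun y hy => ?_)
    have h1 : 0 ≤ D.pairing (W.rep θ) s := by
      rw [W.pair _ _ ((W.π_rep θ).symm ▸ hθ), W.π_rep, T.p1_eq]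
      rcases hs with hs | hs
      · exact W.π_pos.2 hs b
      · rw [W.π_rt]
        refine Finset.sum_nonneg fun i _ => ?_
        split_ifs with h
        exacts [(RD.mem_PhiJ.1 hs i (hJ i h)).ge, le_rfl]
    obtain ⟨t, rfl⟩ := (W.mem_Z_long hθ).1 hy
    rw [W.comm1 (fun e => by
      have := MD.pairing_neg_self (D := D) (W.rep θ)
      rw [e, negR_negR, ← e] at this
      omega) (fun t => MD.not_cb (M := W.M0) rfl h1) hg (TW.x_mem _ t)]
    simpa using hy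
  refine kill T hG (H67.twChev p W.isTw).sylow (le_antisymm (fun g hg => ?_)
    (gen_le fun r hr y hy => ?_)) (P := ((mat D K).T.PJ J).subgroupOf A) (fun g hg => ?_)
    (fun g hg => mem_normalizer_iff.2 fun y => mem_normalizer_iff.1 (hP hg) y) hd h0 ?_
    (by rw [hx]; exact hr) hs h3 hz
  · exact W.mem_of_split (T := {t | Pos t}) (fun _ h => h) (fun _ ha _ hb _ h => h.pos ha hb)
      (fun t ht => le_gen W.Y ht) (gen_mono _ (fun s hs => W.π_pos.2 hs)
        ((H67.mem_twChev_U p W.isTw).1 hg))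
  · exact (H67.mem_twChev_U p W.isTw).2 (gen_mono _ (fun s (hs : W.π s = r) =>
      W.π_pos.1 (hs ▸ hr)) hy)
  · rw [H67.SBN.coe_sylow, H67.SBN.normalizer_U] at hg
    exact (mat D K).T.B_le_PJ J ((H67.mem_twChev_B p W.isTw).1 hg)
  · rw [hx, Nat.sub_mul, one_mul]
    exact Nat.eq_sub_of_add_eq hi

end tw

section E6
variable {K : Type} [Field K] [Fintype K] {q : ℕ} (hq : IsPrimePow q) (hK : Fintype.card K = q ^ 2)
include hq hK

theorem t3_E6 (i j : Fin chevE6.rank)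
    (h1 : (chevE6.simple i, chevE6.simple j) ∈ [(56, 36), (15, 35), (42, 37), (29, 34)])
    (h2 : (chevE6.neg (chevE6.simple i), chevE6.neg (chevE6.simple j)) ∈
      [(56, 36), (15, 35), (42, 37), (29, 34)])
    (h3 : orthN chevE6 (chevE6.simple i) (chevE6.simple j)) {r : ℕ}
    (h : chevE6.cartan i r = -1 ∧ chevE6.cartan j r = 0 ∨
      chevE6.cartan i r = 0 ∧ chevE6.cartan j r = -1) (l : Kˣ) :
    ∃ c, (mat chevE6 K).tor c ∈ twistedE6 K q ∧ CM.chi c r = l := by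
  rcases h with h | h
  · exact ⟨_, tor_two_mem_E6 hq hK i j h1 h2 h3 l⁻¹, by
      rw [CM.chi_mul, CM.chi_single, CM.chi_single, h.1, h.2]; simp⟩
  · exact ⟨_, tor_two_mem_E6 hq hK i j h1 h2 h3 (l⁻¹ ^ q), by
      rw [CM.chi_mul, CM.chi_single, CM.chi_single, h.1, h.2, ← pow_mul, ← pow_two,
        pow_card_units hK]; simp⟩

end E6

theorem job2E6 : Job2E6 := fun p _ K _ _ _ q hq hK => by
  classical
  obtain ⟨E, hE, hc⟩ := exists_fixField hq hK
  let _ := Fintype.ofFinite E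
  rw [Nat.card_eq_fintype_card] at hc
  let W := twE hq hK E hE hc
  have hm : W.md.m = mE := rfl
  have T : W.md.Top ⟨47, by decide⟩ ⟨3, by decide⟩ := by
    constructor <;> (try rw [hm]) <;> decide +kernel
  obtain ⟨x, hx⟩ := Nat.exists_eq_add_of_le' hq.two_le
  refine tw_kill W T (J := twE6.J ({1, 2, 3} : Finset (Fin 4))) (by
    intro i hi h
    obtain rfl : i = ⟨1, by decide⟩ := (by decide : ∀ i : Fin chevE6.rank,
      [0, 3, 1, 2, 1, 0].getD i 0 % 4 = 3 → i = ⟨1, by decide⟩) i (congrArg Fin.val hi)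
    exact absurd (Finset.mem_coe.1 (Tw.mem_J.1 h)) (by decide)) (hc.trans hx) (d := 10)
    (r0 := ((x + 2) ^ 4 + 1) * ((x + 2) ^ 3 * ((x + 1) * (x ^ 2 + 5 * x + 7)) + 1)) (by decide)
    (by positivity) ?_ ?_ (by change ∑ r ∈ _, mE r = _; decide +kernel) (fun i hi => ?_)
    (z2_of_tab T (by rw [hm]; decide +kernel))
  · rw [index_E6 hq hK, hx]; ring
  · zify
    rw [← sub_pos]
    ring_nf
    positivity
  · have h2 : mE (simpleR i) = 2 := if_neg fun c => hi (if_pos c)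
    refine t3_tw W (pos_simpleR i) (by rw [hc, hK]; exact congrArg _ h2) fun r hr => ?_
    obtain rfl | rfl : i = ⟨0, by decide⟩ ∨ i = ⟨1, by decide⟩ := by
      clear hr hi; revert i; decide +kernel
    · refine t3_E6 hq hK ⟨2, by decide⟩ ⟨4, by decide⟩ (by decide) (by decide) (by decide) ?_
      change πE r = _ at hr
      revert r; decide +kernel
    · refine t3_E6 hq hK ⟨0, by decide⟩ ⟨5, by decide⟩ (by decide) (by decide) (by decide) ?_
      change πE r = _ at hr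
      revert r; decide +kernel

theorem conj_D4 {K : Type} [Field K] (a b c w c1 c2 c3 d1 d2 d3 e f : K) :
    (mat chevD4 K).wd [(18, a), (13, b), (12, c)] * (mat chevD4 K).wd [(14, w), (15, c1), (16, c2),
      (19, c3), (17, d1), (20, d2), (21, d3), (22, e), (23, f)] =
    (mat chevD4 K).wd [(14, w), (15, c * w + c1), (16, b * w + c2), (19, -(a * w) + c3),
      (17, b * c * w + b * c1 + c * c2 + d1), (20, -(a * c * w) - a * c1 + c * c3 + d2),
      (21, -(a * b * w) - a * c2 + b * c3 + d3), (22, -(a * b * c * w) - a * b * c1 - a * c * c2 +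
        b * c * c3 - a * d1 + b * d2 + c * d3 + e), (23, b * c * w * c3 + b * c1 * c3 + c * c2 * c3 -
        a * c * w * c2 - a * c1 * c2 - a * b * w * c1 - a * b * c * w * w + f)] *
      (mat chevD4 K).wd [(18, a), (13, b), (12, c)] := by
  simp only [← CM.wd_append]
  refine (congrArg _ ?_).trans ((engD4 [a, b, c, w, c1, c2, c3, d1, d2, d3, e, f] (by simp)
    [(18, [(1, [0])]), (13, [(1, [1])]), (12, [(1, [2])]), (14, [(1, [3])]), (15, [(1, [4])]),
      (16, [(1, [5])]), (19, [(1, [6])]), (17, [(1, [7])]), (20, [(1, [8])]), (21, [(1, [9])]),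
      (22, [(1, [10])]), (23, [(1, [11])])]
    [(14, [(1, [3])]), (15, [(1, [2, 3]), (1, [4])]), (16, [(1, [1, 3]), (1, [5])]),
      (19, [(-1, [0, 3]), (1, [6])]), (17, [(1, [1, 2, 3]), (1, [1, 4]), (1, [2, 5]), (1, [7])]),
      (20, [(-1, [0, 2, 3]), (-1, [0, 4]), (1, [2, 6]), (1, [8])]),
      (21, [(-1, [0, 1, 3]), (-1, [0, 5]), (1, [1, 6]), (1, [9])]),
      (22, [(-1, [0, 1, 2, 3]), (-1, [0, 1, 4]), (-1, [0, 2, 5]), (1, [1, 2, 6]), (-1, [0, 7]),
        (1, [1, 8]), (1, [2, 9]), (1, [10])]),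
      (23, [(1, [1, 2, 3, 6]), (1, [1, 4, 6]), (1, [2, 5, 6]), (-1, [0, 2, 3, 5]), (-1, [0, 4, 5]),
        (-1, [0, 1, 3, 4]), (-1, [0, 1, 2, 3, 3]), (1, [11])]),
      (18, [(1, [0])]), (13, [(1, [1])]), (12, [(1, [2])])]
    (by decide +kernel)).trans (congrArg _ ?_)) <;>
  simp [evPW, mul_assoc, add_assoc, sub_eq_add_neg]

theorem cen_D4 {K : Type} [Field K] (z w c1 c2 c3 d1 d2 d3 e f : K) :
    (mat chevD4 K).wd [(23, z)] * (mat chevD4 K).wd [(14, w), (15, c1), (16, c2),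
      (19, c3), (17, d1), (20, d2), (21, d3), (22, e), (23, f)] =
    (mat chevD4 K).wd [(14, w), (15, c1), (16, c2), (19, c3), (17, d1), (20, d2), (21, d3), (22, e),
      (23, z + f)] := by
  simp only [← CM.wd_append]
  refine (congrArg _ ?_).trans ((engD4 [z, w, c1, c2, c3, d1, d2, d3, e, f] (by simp)
    [(23, [(1, [0])]), (14, [(1, [1])]), (15, [(1, [2])]), (16, [(1, [3])]), (19, [(1, [4])]),
      (17, [(1, [5])]), (20, [(1, [6])]), (21, [(1, [7])]), (22, [(1, [8])]), (23, [(1, [9])])]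
    [(14, [(1, [1])]), (15, [(1, [2])]), (16, [(1, [3])]), (19, [(1, [4])]),
      (17, [(1, [5])]), (20, [(1, [6])]), (21, [(1, [7])]), (22, [(1, [8])]),
      (23, [(1, [0]), (1, [9])])]
    (by decide +kernel)).trans (congrArg _ ?_)) <;>
  simp [evPW]

open Polynomial in
theorem lin3 {K : Type} [Field K] [Fintype K] {q : ℕ} (hq : 2 ≤ q) (hK : Fintype.card K = q ^ 3)
    {a b c : K} (h : ∀ t : K, a * t + b * t ^ q + c * t ^ q ^ 2 = 0) : a = 0 ∧ b = 0 ∧ c = 0 := by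
  have h1 : q < q ^ 2 := by nlinarith
  have h2 : q ^ 2 < q ^ 3 := Nat.pow_lt_pow_right hq (by decide)
  have h3 := eq_zero_of_natDegree_lt_card_of_eval_eq_zero
    (monomial 1 a + monomial q b + monomial (q ^ 2) c) (f := id) Function.injective_id
    (fun t => by simpa [eval_monomial] using h t) (by
      rw [hK]
      exact (natDegree_add_le_of_degree_le (natDegree_add_le_of_degree_le
        ((natDegree_monomial_le _).trans (by omega)) ((natDegree_monomial_le _).trans h1.le))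
        (natDegree_monomial_le _)).trans_lt h2)
  have k := fun n => congrArg (coeff · n) h3
  have k1 := k 1
  have k2 := k q
  have k3 := k (q ^ 2)
  simp only [coeff_add, coeff_monomial, coeff_zero, if_true] at k1 k2 k3
  rw [if_neg (by omega), if_neg (by omega)] at k1 k2 k3
  exact ⟨by simpa using k1, by simpa using k2, by simpa using k3⟩

section D4
variable {K : Type} [Field K] [Fintype K] {q : ℕ} (hq : IsPrimePow q) (hK : Fintype.card K = q ^ 3)
include hq hK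

theorem t3_D4 {r : ℕ} (h : r = 18 ∨ r = 13 ∨ r = 12) (l : Kˣ) :
    ∃ c, (mat chevD4 K).tor c ∈ twistedD4 K q ∧ CM.chi c r = l := by
  obtain ⟨k, hk⟩ := Nat.even_mul_succ_self q
  have e1 : (l ^ (q ^ 2 + q + 1)) ^ q = l ^ (q ^ 2 + q + 1) := by
    rw [← pow_mul, show (q ^ 2 + q + 1) * q = q ^ 3 + (q ^ 2 + q) by ring, pow_add,
      pow_card_units hK, pow_succ' l]
  have e2 : (l ^ (k + 1)) ^ 2 / l ^ (q ^ 2 + q + 1) = l := by
    rw [div_eq_iff_eq_mul, ← pow_mul, ← pow_succ']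
    exact congrArg _ (by nlinarith)
  have e3 : ∀ a : Kˣ, ∃ c, (mat chevD4 K).tor c ∈ twistedD4 K q ∧
      CM.chi c 18 = a ^ 2 / l ^ (q ^ 2 + q + 1) ∧ CM.chi c 13 = (a ^ q) ^ 2 / l ^ (q ^ 2 + q + 1) ∧
      CM.chi c 12 = (a ^ q ^ 2) ^ 2 / l ^ (q ^ 2 + q + 1) := fun a =>
    let ⟨c1, _, c2, c3, _⟩ := chiD4 a (l ^ (q ^ 2 + q + 1)) (a ^ q) (a ^ q ^ 2)
    ⟨_, tor_mem_D4 hq hK ((tl_mem_F_D4 hq hK).2 ⟨e1, rfl, rfl⟩), c1, c2, c3⟩
  rcases h with rfl | rfl | rfl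
  · obtain ⟨c, c0, c1, -⟩ := e3 (l ^ (k + 1))
    exact ⟨c, c0, c1.trans e2⟩
  · obtain ⟨c, c0, -, c1, -⟩ := e3 ((l ^ (k + 1)) ^ q ^ 2)
    exact ⟨c, c0, by rw [c1, ← pow_mul _ _ q, ← pow_succ q, pow_card_units hK, e2]⟩
  · obtain ⟨c, c0, -, -, c1⟩ := e3 ((l ^ (k + 1)) ^ q)
    exact ⟨c, c0, by rw [c1, ← pow_mul _ q, ← pow_succ' q, pow_card_units hK, e2]⟩

theorem z2_D4 {y : GL chevD4.Idx K} {w : List (ℕ × K)}
    (hw : w.map Prod.fst = [14, 15, 16, 19, 17, 20, 21, 22, 23]) (e : y = (mat chevD4 K).wd w)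
    (h : ∀ t : K, ∃ z, (mat chevD4 K).wd [(18, t), (13, t ^ q), (12, t ^ q ^ 2)] * y *
      ((mat chevD4 K).wd [(18, t), (13, t ^ q), (12, t ^ q ^ 2)])⁻¹ * y⁻¹ = xU chevD4 K 23 z) :
    ∃ a b, y = (mat chevD4 K).wd [(22, a), (23, b)] := by
  obtain ⟨w0, _, rfl, h1⟩ := map_fst_eq_cons.1 hw
  obtain ⟨c1, _, rfl, h2⟩ := map_fst_eq_cons.1 h1
  obtain ⟨c2, _, rfl, h3⟩ := map_fst_eq_cons.1 h2
  obtain ⟨c3, _, rfl, h4⟩ := map_fst_eq_cons.1 h3
  obtain ⟨d1, _, rfl, h5⟩ := map_fst_eq_cons.1 h4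
  obtain ⟨d2, _, rfl, h6⟩ := map_fst_eq_cons.1 h5
  obtain ⟨d3, _, rfl, h7⟩ := map_fst_eq_cons.1 h6
  obtain ⟨e0, _, rfl, h8⟩ := map_fst_eq_cons.1 h7
  obtain ⟨f0, _, rfl, h9⟩ := map_fst_eq_cons.1 h8
  obtain rfl := List.map_eq_nil_iff.1 h9
  have key : ∀ t : K, t ^ q ^ 2 * w0 + c1 = c1 ∧
      t ^ q * t ^ q ^ 2 * w0 + t ^ q * c1 + t ^ q ^ 2 * c2 + d1 = d1 ∧
      -(t * t ^ q ^ 2 * w0) - t * c1 + t ^ q ^ 2 * c3 + d2 = d2 ∧
      -(t * t ^ q * t ^ q ^ 2 * w0) - t * t ^ q * c1 - t * t ^ q ^ 2 * c2 +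
        t ^ q * t ^ q ^ 2 * c3 - t * d1 + t ^ q * d2 + t ^ q ^ 2 * d3 + e0 = e0 := fun t => by
    obtain ⟨z, hz⟩ := h t
    have h1 := cen_D4 z w0 c1 c2 c3 d1 d2 d3 e0 f0
    rw [CM.wd_cons _ _ [], CM.wd_nil, mul_one, mat_x, ← hz, e, inv_mul_cancel_right, conj_D4,
      mul_inv_cancel_right] at h1
    have h2 := (mat chevD4 K).wd_inj [14, 15, 16, 19, 17, 20, 21, 22, 23] rfl rfl (by decide)
      (.inl (by decide +kernel)) h1
    simp only [List.cons.injEq, Prod.mk.injEq, true_and] at h2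
    exact ⟨h2.1, h2.2.2.2.1, h2.2.2.2.2.1, h2.2.2.2.2.2.2.1⟩
  obtain rfl : w0 = 0 := by simpa using (key 1).1
  obtain ⟨-, rfl, rfl⟩ := lin3 hq.two_le hK (a := 0) (b := c1) (c := c2) fun t => by
    linear_combination (key t).2.1
  obtain ⟨-, -, rfl⟩ := lin3 hq.two_le hK (a := 0) (b := 0) (c := c3) fun t => by
    linear_combination (key t).2.2.1
  obtain ⟨k1, rfl, rfl⟩ := lin3 hq.two_le hK (a := -d1) (b := d2) (c := d3) fun t => by
    linear_combination (key t).2.2.2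
  obtain rfl := neg_eq_zero.1 k1
  exact ⟨e0, f0, by simp [e, CM.x_zero]⟩

end D4

theorem job3D4 : Job3D4 := fun p _ K _ _ _ q hq hK => by
  classical
  obtain ⟨E, hE, hc⟩ := exists_fixField hq hK
  let _ := Fintype.ofFinite E
  rw [Nat.card_eq_fintype_card] at hc
  let W := twD hq hK E hE hc
  have hm : W.md.m = mD := rfl
  have T : W.md.Top ⟨11, by decide⟩ ⟨1, by decide⟩ := by
    constructor <;> (try rw [hm]) <;> decide +kernel
  obtain ⟨x, hx⟩ := Nat.exists_eq_add_of_le' hq.two_le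
  refine tw_kill W T (J := twD4.J ({0} : Finset (Fin 2))) (by
    intro i hi h
    obtain rfl : i = ⟨1, by decide⟩ := (by decide : ∀ i : Fin chevD4.rank,
      orbD4 i % 2 = 1 → i = ⟨1, _⟩) i (congrArg Fin.val hi)
    exact absurd (Finset.mem_coe.1 (Tw.mem_J.1 h)) (by decide)) (hc.trans hx) (d := 4)
    (r0 := (x + 2) ^ 2 * ((x + 1) * (x + 3)) + 1) (by decide)
    (by positivity) ?_ ?_ (by change ∑ r ∈ _, mD r = _; decide +kernel) (fun i hi => ?_)
    fun y hy h => ?_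
  · rw [index_D4 hq hK, hx]; ring
  · zify
    rw [← sub_pos]
    ring_nf
    positivity
  · have h2 : mD (simpleR i) = 3 := if_neg fun c => hi (if_pos c)
    refine t3_tw W (pos_simpleR i) (by rw [hc, hK]; exact congrArg _ h2) fun r hr => t3_D4 hq hK ?_
    change πD r = _ at hr
    clear hi
    revert i r
    decide +kernel
  obtain ⟨w, hw, e⟩ := exists_wd_Q W (θ := ⟨11, by decide⟩) T [14, 15, 16, 19, 17, 20, 21, 22, 23]
    (by decide) (by decide) (by
      change ∀ a : Rt chevD4, _ ↔ 1 ≤ chevG2.pairing 11 (πD a)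
      decide +kernel) hy
  obtain ⟨e0, f0, e⟩ := z2_D4 hq hK hw e fun t => by
    have hu := (fixU0_D4 hq hK).2 ⟨t, rfl⟩
    exact (W.mem_Z_long (r := ⟨11, by decide⟩) T.mθ).1 (h (simpleR ⟨0, by decide⟩) (pos_simpleR _)
      (by decide +kernel) ⟨_, W.mem_A.2 ⟨nfU0_D4.le hu.1, hu.2⟩⟩ ((mat chevD4 K).wd_mem_gen (by
        simp only [List.forall_mem_cons, List.not_mem_nil, false_imp_iff, implies_true, and_true]
        exact ⟨⟨by decide, Fin.ext rfl⟩, ⟨by decide, Fin.ext rfl⟩, ⟨by decide, Fin.ext rfl⟩⟩)))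
  refine W.mem_of_split (T := {t | (t : ℕ) ∈ [10, 11]})
    (by change ∀ t : Rt chevG2, (t : ℕ) ∈ [10, 11] → _; decide +kernel) ?_ (fun t ht => ?_) ?_
  · rintro r hr s hs t ⟨i, j, hi, hj, e⟩
    have h3 : ∀ r : Rt chevG2, (r : ℕ) ∈ [10, 11] → 3 ≤ rt r ⟨0, by decide⟩ := by decide +kernel
    have h4 : ∀ r : Rt chevG2, rt r ⟨0, by decide⟩ ≤ 3 := by decide +kernel
    have := congrFun e ⟨0, by decide⟩
    simp only [Pi.add_apply, Pi.smul_apply, smul_eq_mul] at this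
    nlinarith [h3 r hr, h3 s hs, h4 t]
  · obtain rfl | rfl : t = sref ⟨1, by decide⟩ ⟨11, by decide⟩ ∨ t = ⟨11, by decide⟩ := by
      revert t; change ∀ t : Rt chevG2, (t : ℕ) ∈ [10, 11] → _; decide +kernel
    exacts [le_sup_right, le_sup_left]
  · rw [e]
    refine (mat chevD4 K).wd_mem_gen ?_
    simp only [List.forall_mem_cons, List.not_mem_nil, false_imp_iff, implies_true, and_true]
    refine ⟨⟨by decide, ?_⟩, ⟨by decide, ?_⟩⟩ <;> (change pD _ ∈ [10, 11]; simp [pD])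

end H45.CK
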