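/- Tower DP3, job Good: a good triple of parabolics. -/
import Cfsg.Agent.H48.DP3Kit
import Cfsg.Agent.H46.Prod

set_option autoImplicit false

namespace H45.DPG

open Subgroup Cfsg H98 H97 H48.DP
open scoped commutatorElement

universe u

variable {G : Type u} [Group G] [Finite G] {T C X Y Y' R₁ R₂ R₃ : Subgroup G}

theorem caseA (h : Amb2 T) (s1 : S3 T R₁) (s2 : S3 T R₂) (s3 : S3 T R₃) (n12 : R₁ ≠ R₂)
    (n13 : R₁ ≠ R₃) (n23 : R₂ ≠ R₃) (c1 : R₁ ≤ Ce (oZ 2 T)) (c2 : R₂ ≤ Ce (oZ 2 T)) :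
    ∃ z y, Gd T R₁ R₂ R₃ z y := by
  have k : ∀ z ∈ oZ 2 T, Ce (oZ 2 T) ≤ C1 z := fun z hz =>
    centralizer_le (Set.singleton_subset_iff.2 hz)
  have no : ∀ z : G, C1 z ≤ No (zpowers z) := fun z g hg => centralizer_le_normalizer _ (by
    rwa [zpowers_eq_closure, centralizer_closure])
  have fx : ∀ z ∈ oZ 2 T, R₃ ≤ C1 z → z = 1 := fun z hz c3 => zpowers_eq_bot.1
    (h.toAmb.three_bot s1 s2 s3 n12 n13 n23 (s1.two.to_le (zpowers_le.2 (oZ_le T hz)))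
      ((c1.trans (k z hz)).trans (no z)) ((c2.trans (k z hz)).trans (no z)) (c3.trans (no z)))
  obtain ⟨s, hs, hs'⟩ := s1.exists_not_mem
  obtain ⟨⟨z, hz⟩, z1⟩ := ne_bot_iff_exists_ne_one.1 (oZ_ne_bot s1.two fun e =>
    hs' (mem_bot.1 (e ▸ hs) ▸ one_mem _))
  have z2 : z ≠ 1 := fun e => z1 (Subtype.ext e)
  obtain ⟨y, hy, oy⟩ := s3.exists_three
  have y3 := pow_three_of oy
  have yT := s3.not_mem oy
  have m : ∀ g ∈ R₃, g * z * g⁻¹ ∈ Zq R₃ := fun g hg => (mem_normalizer_iff.1 (le_No_Zq R₃ hg) z).1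
    (oZ_le_Zq (h.charS s3 s1 n13.symm) s3.le s3.o2_le hz)
  have cm : ∀ a ∈ Zq R₃, ∀ b ∈ Zq R₃, a * b = b * a := fun a ha b hb =>
    oZ_le_centralizer _ hb a (oZ_le _ ha)
  have m0 : z ∈ Zq R₃ := by simpa using m 1 (one_mem _)
  have e : ∀ u g : G, u⁻¹ * g ∈ T → g * z * g⁻¹ = u * z * u⁻¹ := fun u g hg => by
    calc _ = u * (u⁻¹ * g * z) * g⁻¹ := by group
      _ = _ := by rw [oZ_le_centralizer T hz _ hg]; group
  have mn := mul_mem (mul_mem m0 (m y hy)) (m _ (pow_mem hy 2))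
  have hT : T ≤ C1 (z * (y * z * y⁻¹) * (y ^ 2 * z * (y ^ 2)⁻¹)) := fun t ht => by
    rw [mem_C1, eq_comm, ← mul_inv_eq_iff_eq_mul]
    have e0 := e 1 t (by simpa using ht)
    rw [show t * (z * (y * z * y⁻¹) * (y ^ 2 * z * (y ^ 2)⁻¹)) * t⁻¹ = t * z * t⁻¹ *
      ((t * y * z * (t * y)⁻¹) * (t * y ^ 2 * z * (t * y ^ 2)⁻¹)) by group, e0, mul_assoc z,
      one_mul, inv_one, mul_one, mul_right_inj]
    have tR := s3.le ht
    rcases s3.cover hy oy (mul_mem tR hy) with a | a | a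
    · exact absurd ((mul_mem_cancel_left ht).1 a) yT
    all_goals rcases s3.cover hy oy (mul_mem tR (pow_mem hy 2)) with b | b | b
    · exact absurd ((mul_mem_cancel_left ht).1 b) (s3.not_mem (orderOf_sq_three oy))
    · exact absurd (by convert mul_mem (inv_mem a) b using 1; rw [sq]; group) yT
    · rw [e _ _ a, e _ _ b]
    · exact absurd ((mul_mem_cancel_left ht).1 b) (s3.not_mem (orderOf_sq_three oy))
    · rw [e _ _ a, e _ _ b, cm _ (m y hy) _ (m _ (pow_mem hy 2))]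
    · exact absurd (by convert mul_mem (inv_mem a) b using 1; rw [sq]; group) yT
  refine ⟨z, y, s1, s2, s3, n12, z2, hz, c1.trans (k z hz), c2.trans (k z hz),
    fun c => z2 (fx z hz c), hy, oy, fx _ (mem_oZ.2 ⟨s3.o2_le (Zq_le _ mn),
      fun t ht => (mem_C1.1 (hT ht)).symm, (mem_oZ.1 mn).2.2⟩) (s3.le_of hT ?_ hy yT)⟩
  rw [mem_C1, eq_comm, ← mul_inv_eq_iff_eq_mul, mul_assoc z,
    cm z m0 _ (mul_mem (m y hy) (m _ (pow_mem hy 2))), ← cm z m0 _ (mul_mem (m y hy) (m _ (pow_mem hy 2)))]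
  calc _ = y * z * y⁻¹ * (y ^ 2 * z * (y ^ 2)⁻¹) * (y ^ 3 * z * (y ^ 3)⁻¹) := by
        simp only [pow_succ]; group
    _ = _ := by
      rw [y3, one_mul, inv_one, mul_one, cm z m0 _ (mul_mem (m y hy) (m _ (pow_mem hy 2)))]

theorem zle (h : Amb2 T) (sc : S3 T C) (sX : S3 T X) (nX : C ≠ X) : oZ 2 T ≤ Zq (C ⊔ X) :=
  oZ_le_Zq (h.charP sc sX nX) (h.lt sc sX nX).le (h.lt sc sX nX).o2_le

theorem nc (h : Amb2 T) (sc : S3 T C) (sX : S3 T X) (nX : C ≠ X) (cX : ¬ X ≤ Ce (oZ 2 T))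
    {a : G} (ha : a ∈ O2 C) (hc : a ∈ Ce (Zq (C ⊔ X))) : a ∈ O2 (C ⊔ X) :=
  ((h.lt sc sX nX).nc_or.resolve_right fun e => cX (le_sup_right.trans (e.trans
    (centralizer_le (zle h sc sX nX))))).le ⟨mem_sup_left (pCoreOf_le C ha), hc⟩

theorem caseB (tv : JobTV.{u}) (h : Amb2 T) (sc : S3 T C) (sX : S3 T X) (sY : S3 T Y)
    (sY' : S3 T Y') (nX : C ≠ X) (nY : C ≠ Y) (nY' : C ≠ Y') (n' : Y ≠ Y')
    (cX : ¬ X ≤ Ce (oZ 2 T)) (cY : ¬ Y ≤ Ce (oZ 2 T)) {g : G} (h1 : cj g (Zq (C ⊔ X)) ≤ O2 C)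
    (h2 : ¬ cj g (Zq (C ⊔ X)) ≤ O2 (C ⊔ Y)) (h3 : cj g⁻¹ (Zq (C ⊔ Y)) ≤ O2 C)
    (h4 : (Zq C).relIndex (Zq (C ⊔ Y)) ≤ 4) : ∃ R₁ R₂ R₃ z y, Gd T R₁ R₂ R₃ z y := by
  have lX := h.lt sc sX nX
  have lY := h.lt sc sY nY
  obtain ⟨p, tp⟩ := ((tv G T C Y _ lY (h.charP sc sY nY)).1 h4).resolve_left cY
  obtain ⟨-, pc, p2⟩ := mem_oZ.1 tp.mem
  obtain ⟨_, ⟨a, ha, rfl⟩, haY⟩ := SetLike.not_le_iff_exists.1 h2
  change g * a * g⁻¹ ∉ _ at haY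
  have aC := h1 (conj_mem_cj ha)
  obtain ⟨b, hb, ab⟩ : ∃ b ∈ Zq (C ⊔ Y), ⁅b, g * a * g⁻¹⁆ = p := by
    by_contra! hn
    exact haY (nc h sc sY nY cY aC fun b hb => commutatorElement_eq_one_iff_mul_comm.1
      ((tp.com _ aC b hb).resolve_right (hn b hb)))
  have bC : g⁻¹ * b * g ∈ O2 C := by simpa using h3 (conj_mem_cj hb)
  have cc : ∀ w, w ∈ C1 (g⁻¹ * b * g) ↔ ⁅b, g * w * g⁻¹⁆ = 1 := fun w => by
    rw [mem_C1, ← commutatorElement_eq_one_iff_mul_comm, ← conj_eq_one_iff (a := g),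
      conjugate_commutatorElement]
    simp [mul_assoc]
  obtain ⟨p', tp'⟩ := ((tv G T C X _ lX (h.charP sc sX nX)).2 _ (sc.o2_le bC)
    (relIndex_eq_two_iff_exists_notMem_and.2 ⟨a, ha, by rw [cc, ab]; exact tp.ne, fun w hw => by
      have wC := h1 (conj_mem_cj hw)
      refine (tp.com _ wC b hb).symm.imp (fun e => ?_) (cc w).2
      rw [cc, ← conj_mul, commutatorElement_mul_right_eq_mul_conj, e, ab,
        mul_assoc p, pc _ (sc.o2_le wC), ← mul_assoc p, mul_inv_cancel_right, ← sq, p2]⟩)).resolve_right fun ⟨_, t⟩ =>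
      cX (t.cen.trans (centralizer_le (oZ_le_Zq (h.charS sX sc nX.symm) sX.le sX.o2_le)))
  have pi : p⁻¹ = p := inv_eq_of_mul_eq_one_left (by rw [← sq, p2])
  have ga : ∀ q ∈ O2 C, ⁅g * q * g⁻¹, g * a * g⁻¹⁆ = 1 ∨
      ⁅g * q * g⁻¹, g * a * g⁻¹⁆ = (g * p' * g⁻¹)⁻¹ := fun q hq => by
    rw [← commutatorElement_inv, ← conjugate_commutatorElement]
    rcases tp'.com q hq a ha with e | e <;> simp [e]
  have pp : g * p' * g⁻¹ = p := by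
    have := ga _ bC
    simp only [mul_assoc, mul_inv_cancel_left, mul_inv_cancel, mul_one] at this ab ⊢
    rw [ab] at this
    exact inv_injective ((this.resolve_left tp.ne).symm.trans pi.symm)
  have zc : oZ 2 T ≤ Zq C := oZ_le_Zq (h.charS sc sX nX) sc.le sc.o2_le
  have CM : C ≤ C1 p := tp.cen.trans (centralizer_le (Set.singleton_subset_iff.2 (zc tp.mem)))
  have CM' : cj g C ≤ C1 p := by
    rintro _ ⟨c, hc, rfl⟩
    change g * c * g⁻¹ ∈ _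
    rw [mem_C1, ← pp, conj_mul, conj_mul, tp'.cen hc p' (zc tp'.mem)]
  have TM := sc.le.trans CM
  obtain ⟨y, hy, oy, ln⟩ := tp.ln
  rcases h.str _ TM (o2_C1_ne_bot tp.ne (by rw [← sq, p2])) with k | ⟨y0, n, k⟩ | ⟨P, R, L, k, k1, -⟩
  · exact absurd (CM.trans k) sc.nn
  swap
  · exact ⟨P, R, Y, p, y, k.h1.s3, k.h2.s3, sY, k.ne, tp.ne, tp.mem, k.h1.leL.trans k1,
      k.h2.leL.trans k1, tp.nc, hy, oy, mem_bot.1 ln⟩
  exfalso
  have sy := h.toAmb.isSyl TM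
  have e1 : cj g (O2 C) = O2 C := by
    rw [cj_pCoreOf]
    exact (k.o2_eq sy (sc.cj g) CM' ((cj_top g ▸ h.syl.cj g).of_le ((sc.cj g).le.trans CM')
      le_top)).trans (k.o2_eq sy sc CM sy).symm
  have aL : g * a * g⁻¹ ∈ C ⊔ Y := mem_sup_left (pCoreOf_le C aC)
  have st := lY.three_mem (K := stab (O2 (C ⊔ Y)) (Zq (C ⊔ Y)))
    (le_normalizer_stab (self_le_normalizer_pCoreOf _) (le_No_Zq _))
    ⟨le_No_Zq _ aL, fun q hq => by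
      obtain ⟨q, hq', rfl⟩ := e1.ge (lY.h1.le hq)
      rcases ga q hq' with e | e
      · exact e ▸ one_mem _
      · rw [pp, pi] at e
        exact e ▸ zle h sc sY nY tp.mem⟩ aL haY (mem_sup_right hy) oy
  have l2 := h.lt sY sY' n'
  obtain ⟨q, hq, hq'⟩ : ∃ q ∈ O2 (C ⊔ Y), q ∉ O2 (Y ⊔ Y') := by
    by_contra! hn
    have c1 := H46.card_mul_relIndex lY.h2.le
    have c2 := H46.card_mul_relIndex l2.h1.le
    rw [lY.h2.idx] at c1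
    rw [l2.h1.idx] at c2
    have e := eq_of_le_of_card_ge (show O2 (C ⊔ Y) ≤ O2 (Y ⊔ Y') from hn) (by omega)
    exact h.pair C Y sc sY nY (h.toAmb.three_bot sc sY sY' nY nY' n' (isPGroup_pCoreOf _)
      lY.h1.le_No lY.h2.le_No (e ▸ l2.h2.le_No))
  have e2 := l2.h1.sup_eq ((Zq_le _).trans lY.h2.le) (fun k => hq' (l2.h1.fpf y hy oy q
    (lY.h2.le hq) (k (st.2 q hq)))) hy oy (le_No_Zq _ (mem_sup_right hy))
  have e3 := l2.h1.idx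
  rw [← e2, sup_comm (Zq _), H46.relIndex_sup_of_nrm (((Zq_le _).trans lY.h2.le).trans
    ((pCoreOf_le Y).trans l2.h1.le_No))] at e3
  have := relIndex_dvd_of_le_left (Zq (C ⊔ Y)) ((l2.h1.Zq_le (h.charP sY sY' n')).trans (Zq_le _))
  rw [e3, tp.i2] at this
  omega

theorem caseC (off : JobOff.{u}) (tv : JobTV.{u}) (h : Amb2 T) (sc : S3 T C) (sX : S3 T X)
    (sY : S3 T Y) (nX : C ≠ X) (nY : C ≠ Y) (n' : X ≠ Y) (cX : ¬ X ≤ Ce (oZ 2 T))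
    (cY : ¬ Y ≤ Ce (oZ 2 T)) : ∃ R₁ R₂ R₃ z y, Gd T R₁ R₂ R₃ z y := by
  obtain ⟨g, A, B, hA, hB, h1, h2, h3⟩ := h.pair_crit sc sX sY nX nY n'
  have k : ∀ A, A = X ∨ A = Y → S3 T A ∧ C ≠ A ∧ ¬ A ≤ Ce (oZ 2 T) ∧
      ∃ A', S3 T A' ∧ C ≠ A' ∧ A ≠ A' := by
    rintro _ (rfl | rfl)
    exacts [⟨sX, nX, cX, Y, sY, nY, n'⟩, ⟨sY, nY, cY, X, sX, nX, n'.symm⟩]
  obtain ⟨a1, a2, a3, A', a4, a5, a6⟩ := k A hA
  obtain ⟨b1, b2, b3, B', b4, b5, b6⟩ := k B hB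
  rcases off G T C B A _ _ g (h.lt sc b1 b2).h1 (h.lt sc a1 a2).h1 h1 h2 h3 with e | e
  · exact caseB tv h sc a1 b1 b4 a2 b2 b5 b6 a3 b3 h1 h2 h3 e
  refine caseB tv h sc b1 a1 a4 b2 a2 a5 a6 b3 a3 h3 (fun e => h2 fun a ha =>
    nc h sc b1 b2 b3 (h1 ha) ?_) (by rwa [inv_inv]) e
  have := cj_le_iff.1 (e.trans (le_centralizer_oZ (p := 2) _))
  rw [inv_inv, cj_centralizer] at this
  exact le_centralizer_iff.1 this ha

theorem jobGood : JobGood.{u} := fun off tv G _ _ T P₁ P₂ P₃ h st s1 s2 s3 n12 n13 n23 => by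
  by_cases c1 : P₁ ≤ Ce (oZ 2 T) <;> by_cases c2 : P₂ ≤ Ce (oZ 2 T) <;>
    by_cases c3 : P₃ ≤ Ce (oZ 2 T)
  · exact ⟨_, _, _, caseA h s1 s2 s3 n12 n13 n23 c1 c2⟩
  · exact ⟨_, _, _, caseA h s1 s2 s3 n12 n13 n23 c1 c2⟩
  · exact ⟨_, _, _, caseA h s1 s3 s2 n13 n12 n23.symm c1 c3⟩
  · exact caseC off tv h s1 s2 s3 n12 n13 n23 c2 c3
  · exact ⟨_, _, _, caseA h s2 s3 s1 n23 n12.symm n13.symm c2 c3⟩
  · exact caseC off tv h s2 s1 s3 n12.symm n23 n13 c1 c3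
  · exact caseC off tv h s3 s1 s2 n13.symm n23.symm n12 c1 c2
  · exact absurd (st _ _ _ s1 s2 s3 n12 n13 n23) (by tauto)

end H45.DPG
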