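import Cfsg.Agent.H37.E7PM
import Cfsg.Agent.H67.RGDTop
import Cfsg.Agent.H67.BNPar

/-! E7MAX (S5934): the maximal parabolic subgroups are pairwise non-conjugate. -/

set_option autoImplicit false

namespace H45.E7M
open Cfsg.Lie H64

theorem PJ_conj {Φ ι : Type*} [Finite Φ] {R : WData Φ ι} {G : Type*} [Group G] (T : RGD R G)
    (h : T.Gp = ⊤) {J K : Set ι} {g : G}
    (e : (T.PJ J).map (MulAut.conj g).toMonoidHom = T.PJ K) : J = K := by
  have hg : g ∈ T.PJ K := H67.mem_of_conj_le (P := H67.bnTop T h) _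
    (T.B_le_PJ K) fun b hb => e ▸ ⟨b, T.B_le_PJ J hb, rfl⟩
  ext i
  rw [← T.n_mem_PJ_iff, ← T.n_mem_PJ_iff (J := K)]
  constructor
  · intro hx
    have h1 : g * T.n i * g⁻¹ ∈ T.PJ K := e ▸ ⟨_, hx, rfl⟩
    rwa [mul_mem_cancel_right (inv_mem hg), mul_mem_cancel_left hg] at h1
  · intro hx
    have h1 : g * T.n i * g⁻¹ ∈ T.PJ K := mul_mem (mul_mem hg hx) (inv_mem hg)
    rw [← e] at h1
    obtain ⟨y, hy, e'⟩ := h1
    exact (MulAut.conj g).injective e' ▸ hy

open H36.E7M H37.E7PM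

theorem jobPN : JobPN := by
  intro i j g e
  rw [P_eq, P_eq] at e
  have := Set.ext_iff.1 (PJ_conj T T_Gp e) i
  by_contra h
  exact this.2 h rfl

end H45.E7M
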