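import Cfsg.Agent.H45.E7TE6
import Cfsg.Agent.H45.E7T2E6
import Cfsg.Agent.H22.E7K

/-! Tower E7MAX (row S5934): the types E6 and 2E6. -/

set_option autoImplicit false
set_option maxRecDepth 100000

namespace H45.E7TF
open H36.E7M H22.E7K

theorem tE6 (k : Kit) : TE6 :=
  H45.E7TE6.of_wk wk ((mats_wa _).trans (by decide +kernel)) (by decide +kernel) k

theorem t2E6 (k : Kit) : T2E6 :=
  H45.E7TwE6.of_wk wk ((mats_wa _).trans (by decide +kernel)) (by decide +kernel)
    (mat_wa_of (by decide +kernel)) k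

end H45.E7TF
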