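import Cfsg.Agent.H36.E7MSpec
import Cfsg.Agent.H22.E7K0

/-! E7MAX (S5934): `U27` and `G19` from finitely many facts on generators. -/

set_option autoImplicit false

namespace H45.E7U
open Cfsg.Lie H36.E7M Module

/-- `g` maps `U` into `U'` -/
def Mp (U U' : Submodule F LA) (g : G) : Prop := ∀ v ∈ U, ρ g v ∈ U'

theorem Mp.mul {U U' U'' : Submodule F LA} {g h : G} (a : Mp U' U'' g) (b : Mp U U' h) :
    Mp U U'' (g * h) := fun v hv => by rw [map_mul, Module.End.mul_apply]; exact a _ (b v hv)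

theorem Mp.one (U : Submodule F LA) : Mp U U 1 := fun v hv => by rw [map_one]; exact hv

theorem Mp.inv {U : Submodule F LA} {g : G} (a : Mp U U g) : Mp U U g⁻¹ := by
  have h : ∀ n : ℕ, Mp U U (g ^ n) := fun n => by
    induction n with
    | zero => rw [pow_zero]; exact Mp.one U
    | succ n ih => rw [pow_succ]; exact ih.mul a
  have e : g⁻¹ = g ^ (orderOf g - 1) := by
    rw [inv_eq_iff_mul_eq_one, ← pow_succ', Nat.sub_add_cancel (orderOf_pos g), pow_orderOf_eq_one]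
  rw [e]; exact h _

/-- `g` keeps or swaps `U`, `U'` -/
def KS (U U' : Submodule F LA) (g : G) : Prop := Mp U U g ∧ Mp U' U' g ∨ Mp U U' g ∧ Mp U' U g

theorem swap_inv {U U' : Submodule F LA} {g : G} (a : Mp U U' g) (b : Mp U' U g) : Mp U U' g⁻¹ := by
  have : g⁻¹ = g * (g * g)⁻¹ := by group
  rw [this]; exact a.mul (b.mul a).inv

theorem ks_of {U U' : Submodule F LA} {S : Set G} (h : ∀ g ∈ S, KS U U' g) {g : G}
    (hg : g ∈ Subgroup.closure S) : KS U U' g := by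
  induction hg using Subgroup.closure_induction with
  | mem g hg => exact h g hg
  | one => exact .inl ⟨Mp.one U, Mp.one U'⟩
  | mul a b _ _ ha hb =>
    rcases ha with ⟨a1, a2⟩ | ⟨a1, a2⟩ <;> rcases hb with ⟨b1, b2⟩ | ⟨b1, b2⟩
    exacts [.inl ⟨a1.mul b1, a2.mul b2⟩, .inr ⟨a2.mul b1, a1.mul b2⟩, .inr ⟨a1.mul b1, a2.mul b2⟩,
      .inl ⟨a2.mul b1, a1.mul b2⟩]
  | inv a _ ha =>
    rcases ha with ⟨a1, a2⟩ | ⟨a1, a2⟩
    exacts [.inl ⟨a1.inv, a2.inv⟩, .inr ⟨swap_inv a1 a2, swap_inv a2 a1⟩]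

theorem u27_of {U U' : Submodule F LA} {S : Set G} (d : finrank F U = 27) (h : ∀ g ∈ S, KS U U' g)
    (z1 : Mp U U z) (z2 : Mp U' U' z) : U27 (Subgroup.closure S) := by
  refine ⟨U, d, ?_⟩
  rintro _ ⟨u, hu, rfl⟩
  rcases ks_of h hu with ⟨a1, -⟩ | ⟨a1, a2⟩
  exacts [(a1.mul z1).mul a1.inv, (a2.mul z2).mul (swap_inv a1 a2)]

theorem ρ_inj {g : G} (h : ρ g = 1) : g = 1 := by
  refine Subtype.ext (Units.ext (Matrix.toLin'.injective (LinearMap.ext fun v => ?_)))
  have := LinearMap.congr_fun h v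
  rw [ρ_apply] at this
  simpa using this

theorem fixS_single (g : G) : fixS {g} = LinearMap.ker (ρ g - 1) := by
  ext v
  simp [mem_fixS, sub_eq_zero]

end H45.E7U
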