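import Cfsg.Agent.H11.FBSpec
/-! FB tower: case A, degree 12. -/
set_option autoImplicit false
namespace H45.FBA
open MulAction Subgroup H11.FB
universe u v
variable {G : Type u} {Ω : Type v} [Group G] [MulAction G Ω] {J M : Subgroup G} {S : Set Ω}

theorem orb_mul (H : Subgroup G) (w : Ω) :
    (orbit H w).ncard * Nat.card (H ⊓ stabilizer G w : Subgroup G) = Nat.card H := by
  rw [← index_stabilizer, ← Subgroup.index_mul_card (stabilizer H w)]
  congr 1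
  exact Nat.card_congr
    { toFun := fun x => ⟨⟨x.1, x.2.1⟩, x.2.2⟩
      invFun := fun x => ⟨x.1.1, x.1.2, x.2⟩
      left_inv := fun _ => rfl
      right_inv := fun _ => rfl }

theorem orb_smul (hn : Nm M J) {m : G} (hm : m ∈ M) (x : Ω) :
    orbit J (m • x) = (fun z => m • z) '' orbit J x := by
  ext z
  constructor
  · rintro ⟨⟨j, hj⟩, rfl⟩
    exact ⟨_, ⟨⟨_, hn _ (inv_mem hm) j hj⟩, rfl⟩, by simp [mul_smul]⟩
  · rintro ⟨_, ⟨⟨j, hj⟩, rfl⟩, rfl⟩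
    exact ⟨⟨_, hn _ hm j hj⟩, by simp [mul_smul]⟩

/-- The orbits of a normal subgroup of a transitive group have one length. -/
theorem orb_dvd [Finite Ω] (hn : Nm M J) (hS : ∀ j ∈ J, ∀ x ∈ S, j • x ∈ S)
    (ht : ∀ x ∈ S, ∀ y ∈ S, ∃ m ∈ M, m • x = y) {x : Ω} (hx : x ∈ S) : (orbit J x).ncard ∣ S.ncard := by
  classical
  rw [Set.ncard_eq_toFinset_card S S.toFinite,
    Finset.card_eq_sum_card_image (fun y => orbit J y)]
  refine Finset.dvd_sum fun o ho => dvd_of_eq ?_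
  obtain ⟨y, hy, rfl⟩ := Finset.mem_image.1 ho
  rw [Set.Finite.mem_toFinset] at hy
  obtain ⟨m, hm, rfl⟩ := ht x hx y hy
  rw [← Set.ncard_image_of_injective _ (MulAction.injective m), ← orb_smul hn hm, ← Set.ncard_coe_finset]
  congr 1
  ext z
  simp only [Finset.coe_filter, Set.Finite.mem_toFinset, Set.mem_setOf_eq, orbit_eq_iff]
  exact ⟨fun h => ⟨by obtain ⟨j, rfl⟩ := h; exact hS j j.2 _ hy, h⟩, fun h => h.2⟩

theorem moves [FaithfulSMul G Ω] (h1 : J ≠ ⊥) (hS : ∀ j ∈ J, ∀ x, x ∉ S → j • x = x) :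
    ∃ j ∈ J, ∃ x ∈ S, j • x ≠ x := by
  by_contra! k
  exact h1 (eq_bot_iff.2 fun j hj => mem_bot.2 (eq_of_smul_eq_smul (α := Ω) fun x => by
    rw [one_smul]; by_cases hx : x ∈ S
    exacts [k j hj x hx, hS j hj x hx]))

theorem inv_of_fix (hS : ∀ j ∈ J, ∀ x, x ∉ S → j • x = x) : ∀ j ∈ J, ∀ x ∈ S, j • x ∈ S :=
  fun j hj x hx => by
    by_contra k
    have e : j • x = x := MulAction.injective j (hS j hj _ k)
    exact k (e.symm ▸ hx)

/-- A nontrivial normal subgroup of a doubly transitive group is transitive. -/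
theorem orb_eq [FaithfulSMul G Ω] (hn : Nm M J) (h1 : J ≠ ⊥) (hS : ∀ j ∈ J, ∀ x, x ∉ S → j • x = x)
    (ht : ∀ x ∈ S, ∀ y ∈ S, ∀ x' ∈ S, ∀ y' ∈ S, x ≠ y → x' ≠ y' → ∃ m ∈ M, m • x = x' ∧ m • y = y')
    {x : Ω} (hx : x ∈ S) : orbit J x = S := by
  refine Set.Subset.antisymm (by rintro _ ⟨j, rfl⟩; exact inv_of_fix hS j j.2 x hx) fun z hz => ?_
  by_cases e : x = z
  · exact e ▸ mem_orbit_self x
  obtain ⟨j, hj, w, hw, k⟩ := moves h1 hS
  obtain ⟨m, hm, rfl, rfl⟩ := ht w hw _ (inv_of_fix hS j hj w hw) x hx z hz k.symm e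
  rw [orb_smul hn hm]
  exact ⟨_, ⟨⟨j, hj⟩, rfl⟩, rfl⟩

theorem fresh [Fintype Ω] (h : 3 < Fintype.card Ω) (x y z : Ω) : ∃ w, x ≠ w ∧ y ≠ w ∧ z ≠ w := by
  classical
  obtain ⟨w, -, hw⟩ := Finset.exists_mem_notMem_of_card_lt_card (s := {x, y, z}) (t := Finset.univ)
    (Finset.card_le_three.trans_lt h)
  simp only [Finset.mem_insert, Finset.mem_singleton, not_or] at hw
  exact ⟨w, Ne.symm hw.1, Ne.symm hw.2.1, Ne.symm hw.2.2⟩

theorem nm_inf {M' : Subgroup G} {x : Ω} (hn : Nm M J) (h : M' ≤ M ⊓ stabilizer G x) :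
    Nm M' (J ⊓ stabilizer G x) := fun m hm j hj =>
  ⟨hn m (h hm).1 j hj.1, (stabilizer G x).mul_mem ((stabilizer G x).mul_mem (h hm).2 hj.2)
    ((stabilizer G x).inv_mem (h hm).2)⟩

theorem jobA12 : JobA12.{u, v} := by
  intro G Ω _ _ _ _ _ a b c d K H J t hy cd ea hn hJ nm hc
  obtain ⟨ab, ac, ad, bc, bd, cd'⟩ := hy.ne
  have n12 : Nat.card Ω = 12 := by rw [Nat.card_eq_fintype_card, hn]
  have nb : ∀ {U : Subgroup G}, 1 < Nat.card U → U ≠ ⊥ := fun h e => by simp [e] at h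
  have o1 := orb_mul J b
  rw [orb_eq (S := {a}ᶜ) nm (nb (by omega)) (fun j hj x hx => by
      rw [show x = a by simpa using hx]; exact hJ hj) (fun x hx y hy' x' hx' y' hy'' h h' => by
      obtain ⟨w, w1, w2, w3⟩ := fresh (by omega) a x y
      obtain ⟨w', v1, v2, v3⟩ := fresh (by omega) a x' y'
      obtain ⟨g, g1, g2, g3, -⟩ := hy.exists_smul ⟨Ne.symm hx, Ne.symm hy', w1, h, w2, w3⟩
        ⟨Ne.symm hx', Ne.symm hy'', v1, h', v2, v3⟩
      exact ⟨g, g1, g2, g3⟩) ab.symm, Set.ncard_compl, Set.ncard_singleton, n12] at o1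
  have n2 : Nm (Y2 G a b) (J ⊓ stabilizer G b) := nm_inf nm le_rfl
  have o2 := orb_mul (J ⊓ stabilizer G b) c
  rw [orb_eq (S := {a, b}ᶜ) n2 (nb (by omega)) (fun j hj x hx => by
      rcases (show x = a ∨ x = b from not_not.1 hx) with rfl | rfl
      exacts [hJ hj.1, hj.2]) (fun x hx y hy' x' hx' y' hy'' h h' => by
      simp only [Set.mem_compl_iff, Set.mem_insert_iff, Set.mem_singleton_iff, not_or] at hx hy' hx' hy''
      obtain ⟨g, g1, g2, g3⟩ := hy.exists_smul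
        ⟨ab, Ne.symm hx.1, Ne.symm hy'.1, Ne.symm hx.2, Ne.symm hy'.2, h⟩
        ⟨ab, Ne.symm hx'.1, Ne.symm hy''.1, Ne.symm hx'.2, Ne.symm hy''.2, h'⟩
      exact ⟨g, ⟨g1, g2⟩, g3⟩) (by simp [ac.symm, bc.symm]), Set.ncard_compl, Set.ncard_pair ab, n12] at o2
  have n3 : Nm (X3 G a b c) (J ⊓ stabilizer G b ⊓ stabilizer G c) := nm_inf n2 le_rfl
  have o3 := orb_mul (J ⊓ stabilizer G b ⊓ stabilizer G c) d
  have fx : ∀ j ∈ J ⊓ stabilizer G b ⊓ stabilizer G c, ∀ x, x ∉ ({a, b, c}ᶜ : Set Ω) → j • x = x :=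
    fun j hj x hx => by
      rcases (show x = a ∨ x = b ∨ x = c from not_not.1 hx)
        with rfl | rfl | rfl
      exacts [hJ hj.1.1, hj.1.2, hj.2]
  have tr : ∀ x ∈ ({a, b, c}ᶜ : Set Ω), ∀ y ∈ ({a, b, c}ᶜ : Set Ω), ∃ m ∈ X3 G a b c, m • x = y :=
    fun x hx y hy' => by
      simp only [Set.mem_compl_iff, Set.mem_insert_iff, Set.mem_singleton_iff, not_or] at hx hy'
      obtain ⟨g, g1, g2, g3, g4⟩ := hy.exists_smul
        ⟨ab, ac, Ne.symm hx.1, bc, Ne.symm hx.2.1, Ne.symm hx.2.2⟩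
        ⟨ab, ac, Ne.symm hy'.1, bc, Ne.symm hy'.2.1, Ne.symm hy'.2.2⟩
      exact ⟨g, ⟨⟨g1, g2⟩, g3⟩, g4⟩
  have hd : d ∈ ({a, b, c}ᶜ : Set Ω) := by simp [ad.symm, bd.symm, cd'.symm]
  have d9 := orb_dvd n3 (inv_of_fix fx) tr hd
  rw [Set.ncard_compl, Set.ncard_eq_three.2 ⟨a, b, c, ab, ac, bc, rfl⟩, n12] at d9
  have l1 : 1 < (orbit (J ⊓ stabilizer G b ⊓ stabilizer G c : Subgroup G) d).ncard := by
    obtain ⟨j, hj, w, hw, k⟩ := moves (nb (by omega)) fx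
    obtain ⟨m, hm, rfl⟩ := tr w hw d hd
    rw [orb_smul n3 hm, Set.ncard_image_of_injective _ (MulAction.injective m)]
    exact (Set.one_lt_ncard (Set.toFinite _)).2 ⟨_, ⟨⟨j, hj⟩, rfl⟩, w, mem_orbit_self w, k⟩
  have le : J ⊓ stabilizer G b ⊓ stabilizer G c ⊓ stabilizer G d ≤ L4 G a b c d :=
    inf_le_inf_right _ (inf_le_inf_right _ (inf_le_inf_right _ hJ))
  have h3 : Nat.card (J ⊓ stabilizer G b ⊓ stabilizer G c ⊓ stabilizer G d : Subgroup G) ∈ [2, 24, 8] := by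
    have := Nat.le_of_dvd (by decide) d9
    generalize (orbit (J ⊓ stabilizer G b ⊓ stabilizer G c : Subgroup G) d).ncard = l at *
    simp only [List.mem_cons, List.not_mem_nil, or_false]
    interval_cases l <;> omega
  simp only [List.mem_cons, List.not_mem_nil, or_false] at h3
  have : Fact (Nat.Prime 2) := ⟨Nat.prime_two⟩
  obtain ⟨⟨x, hx⟩, x2⟩ := exists_prime_orderOf_dvd_card'
    (G := (J ⊓ stabilizer G b ⊓ stabilizer G c ⊓ stabilizer G d : Subgroup G)) 2 (by omega)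
  rw [orderOf_mk] at x2
  have Ka : ∀ k ∈ K, k ∈ stabilizer G a := fun k hk => (hy.fr.Kle hk).1.1.1
  obtain ⟨k, hk, e⟩ := ea.cjt x (le hx) (fun e => by simp [e] at x2)
    (by rw [← pow_two, ← x2, pow_orderOf_eq_one])
  have tJ : t ∈ J := e ▸ nm k (Ka k hk) x hx.1.1.1
  have KJ : K ≤ J ⊓ stabilizer G b ⊓ stabilizer G c ⊓ stabilizer G d := fun k hk => by
    have l := hy.fr.Kle hk
    refine ⟨⟨⟨?_, l.1.1.2⟩, l.1.2⟩, l.2⟩
    have h1 := mul_mem (nm k (Ka k hk) t tJ) (inv_mem tJ)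
    rw [mul_assoc, mul_assoc, ← mul_assoc t, ea.inv _ (inv_mem hk), inv_inv] at h1
    obtain ⟨r, hr⟩ := ea.odd
    have h2 : k ^ (2 * r + 1) = 1 := by
      rw [← hr]; exact orderOf_dvd_iff_pow_eq_one.1 (orderOf_dvd_natCard K hk)
    have h4 := pow_mem h1 (r + 1)
    rwa [← pow_two, ← pow_mul, show 2 * (r + 1) = 2 * r + 1 + 1 by ring, pow_succ, h2, one_mul] at h4
  have h5 := card_dvd_of_le KJ
  have h6 := card_le_of_le le
  have h7 := cd.md K le_rfl fun m hm => hy.fr.Kn m (hy.fr.Hle hm)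
  have h8 : Nat.card K ≠ 1 := fun e => hy.fr.Kne (card_eq_one.1 e)
  have h9 := Nat.odd_iff.1 ea.odd
  rw [cd.cL] at h6
  have h10 := Nat.le_of_dvd Nat.card_pos h5
  generalize Nat.card (J ⊓ stabilizer G b ⊓ stabilizer G c ⊓ stabilizer G d : Subgroup G) = m at *
  have k3 : Nat.card K = 3 ∧ m = 24 := by
    generalize Nat.card K = q at *
    rcases h3 with rfl | rfl | rfl <;> interval_cases q <;> omega
  rw [k3.1] at h6 h7
  have := Nat.le_of_dvd (by decide) h7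
  omega

end H45.FBA
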