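import Cfsg.Agent.H42.PnSpec
import Cfsg.Agent.H90.Fisher

/-! PN tower (S3399): the slot FIS. -/

set_option autoImplicit false
set_option linter.unusedSectionVars false

namespace H45.PN
open Equiv MulAction Pointwise H2.Ln H42.PN

theorem jobFis : Fis := by
  intro α _ _ M U V hU h2 hV hi a ha b hb
  by_contra hn
  let A := orb V a
  let T : Finset (Finset α) := (el M).image fun g => g • A
  have mT : ∀ B, B ∈ T ↔ ∃ g ∈ M, g • A = B := fun B => by simp [T, mem_el]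
  have h1 : U.card ≤ T.card := by
    refine H90.fisher_action (G := Perm α) U T (fun x B => x ∈ B) (fun g x B => app_mem_sm)
      (fun x hx y hy x' hx' y' hy' e e' => ?_) ha hb ((mT A).2 ⟨1, M.one_mem, one_smul _ _⟩)
      self_mem_orb fun h => hn (mem_orb.1 h)
    obtain ⟨g, hg, g1, g2⟩ := h2 x hx y hy x' hx' y' hy' e e'
    refine ⟨g, g1, g2, fun B => ?_⟩
    rw [mT, mT]
    constructor
    · rintro ⟨k, hk, e⟩
      exact ⟨g⁻¹ * k, M.mul_mem (M.inv_mem hg) hk, by rw [mul_smul, e, inv_smul_smul]⟩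
    · rintro ⟨k, hk, rfl⟩
      exact ⟨g * k, M.mul_mem hg hk, mul_smul _ _ _⟩
  have h3 : T.card = (stabilizer M A).index := by
    rw [index_stabilizer, ← Set.ncard_coe_finset]
    congr 1
    ext B
    rw [Finset.mem_coe, mT]
    exact ⟨fun ⟨g, hg, e⟩ => ⟨⟨g, hg⟩, e⟩, fun ⟨g, e⟩ => ⟨g.1, g.2, e⟩⟩
  have h4 : V.subgroupOf M ≤ stabilizer M A := fun g hg => sm_eq_iff.2 (orb_inv _ hg)
  have h5 := Subgroup.index_antitone h4
  rw [Subgroup.relIndex] at hi
  omega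

theorem jobPt : Fis → Pt := by
  intro fis α _ _ G K c s hs a ha b hb
  have h4 := c.four
  have hn := c.half
  have KN : K ≤ sw G (fp K) := fun k hk => ⟨c.le hk, sm_fp hk⟩
  have t2 : T2 (sw G (fp K)) (fp K) := fun x hx y hy x' hx' y' hy' e e' => by
    obtain ⟨g, hg, g1, g2⟩ := c.t3.t2 (by rw [Finset.card_univ]; omega) x (Finset.mem_univ _) y
      (Finset.mem_univ _) x' (Finset.mem_univ _) y' (Finset.mem_univ _) e e'
    obtain ⟨z, hz, z1⟩ := c.pro.wit c.le hg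
    exact ⟨z, hz, by rw [z1 x hx (g1 ▸ hx'), g1], by rw [z1 y hy (g2 ▸ hy'), g2]⟩
  have nK : ∀ x ∈ sw G (fp K), ∀ k ∈ K, x * k * x⁻¹ ∈ K := fun x hx k hk =>
    c.full (mem_fx.2 ⟨G.mul_mem (G.mul_mem hx.1 (c.le hk)) (G.inv_mem hx.1), fun u hu => by
      have : x⁻¹ u ∈ fp K := mem_sm.1 ((mem_sw.1 hx).2.symm ▸ hu)
      rw [Perm.mul_apply, Perm.mul_apply, mem_fp.1 this k hk]; simp⟩)
  set N := sw G (fp K) with hN
  let L : Subgroup (Perm α) := N ⊓ stabilizer (Perm α) s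
  have LV : L ≤ sw N (orb K s) := fun x hx => ⟨hx.1, sm_eq_iff.2 fun u hu => by
    obtain ⟨k, hk, rfl⟩ := mem_orb.1 hu
    have e : x s = s := hx.2
    exact mem_orb.2 ⟨_, nK x hx.1 k hk, by
      rw [Perm.mul_apply, Perm.mul_apply, show x⁻¹ s = s from Perm.inv_eq_iff_eq.2 e.symm]⟩⟩
  have KV : K ≤ sw N (orb K s) := fun k hk => ⟨KN hk, sm_eq_iff.2 (orb_inv _ hk)⟩
  have VN : sw N (orb K s) ≤ N := inf_le_left
  have h1 := Subgroup.relIndex_mul_relIndex L _ N LV VN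
  have h2 : L.relIndex (sw N (orb K s)) ≠ 1 := fun h => hs (mem_fp.2 fun k hk =>
    (Subgroup.relIndex_eq_one.1 h (KV hk)).2)
  have h3 : L.relIndex (sw N (orb K s)) ≠ 0 := Subgroup.index_ne_zero_of_finite
  have h5 : L.relIndex N ≤ (fp K).card := by
    have e : L.subgroupOf N = stabilizer N s := by
      ext x; simp [L, Subgroup.mem_subgroupOf, mem_stabilizer_iff, Subgroup.smul_def]
    rw [Subgroup.relIndex, e, index_stabilizer]
    have : orbit N s ⊆ ((fp K)ᶜ : Finset α) := by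
      rintro _ ⟨x, rfl⟩
      simp only [Finset.coe_compl, Set.mem_compl_iff, Finset.mem_coe]
      exact fun h => hs ((sm_eq_iff'.1 (mem_sw.1 x.2).2 s).1 h)
    refine (Set.ncard_le_ncard this).trans ?_
    rw [Set.ncard_coe_finset, Finset.card_compl]
    omega
  have h6 : (sw N (orb K s)).relIndex N < (fp K).card := by
    have : 2 * (sw N (orb K s)).relIndex N ≤ L.relIndex N := h1 ▸ Nat.mul_le_mul_right _ (by omega)
    omega
  obtain ⟨g, hg, e⟩ := fis α N (fp K) _ (fun x hx => (mem_sw.1 hx).2) t2 VN h6 a ha b hb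
  obtain ⟨k, hk, e'⟩ := mem_orb.1 (sm_eq_iff.1 (mem_sw.1 hg).2 s self_mem_orb)
  refine ⟨k⁻¹ * g, N.mul_mem (N.inv_mem (KN hk)) (VN hg), ?_, ?_⟩
  · rw [Perm.mul_apply, ← e']; simp
  · rw [Perm.mul_apply, e, mem_fp.1 hb _ (K.inv_mem hk)]

end H45.PN
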