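import Cfsg.Agent.H70.R3Spec
/-! R3 tower: the affine reduction. -/
set_option autoImplicit false
namespace H45.R3A
open Cfsg H28 H90 H34.TL H70.R3 Subgroup MulAction
universe u
variable {G : Type u} [Group G] [Finite G] {p : ℕ} [hp : Fact p.Prime]

/-- `G = V H` with `V` abelian and self-centralizing and `H` a `p'`-group. -/
structure Af (p : ℕ) (V H : Subgroup G) (π : G →* H) : Prop where
  normal : V.Normal
  pg : IsPGroup p V
  self : centralizer (V : Set G) = V
  compl : IsComplement' V H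
  cop : ¬ p ∣ Nat.card H
  ne : V ≠ ⊥
  all : ∀ x : G, (∃ k, orderOf x = p ^ k) → x ∈ V
  ker : π.ker = V
  res : ∀ h : H, π h = h

theorem mem_of_idx (N : Subgroup G) [N.Normal] (h : ¬ p ∣ N.index) {x : G} (hx : ∃ k, orderOf x = p ^ k) :
    x ∈ N := by
  obtain ⟨k, hk⟩ := hx
  exact (QuotientGroup.eq_one_iff x).1 (orderOf_eq_one_iff.1 (Nat.eq_one_of_dvd_coprimes
    ((hp.out.coprime_iff_not_dvd.2 h).pow_left k) (hk ▸ orderOf_map_dvd (QuotientGroup.mk' N) x)
    (orderOf_dvd_natCard _)))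

omit [Finite G] in
theorem ord {Q : Subgroup G} (hQ : IsPGroup p Q) {v : G} (hv : v ∈ Q) : ∃ k, orderOf v = p ^ k :=
  (IsPGroup.iff_orderOf.1 hQ ⟨v, hv⟩).imp fun _ e => (orderOf_mk v hv).symm.trans e

theorem exists_af (hs : IsPSolvable p G) (hO : pPrimeCore p G = ⊥) (hd : p ∣ Nat.card G)
    (hN : ∀ N : Subgroup G, N.Normal → IsPGroup p N → N ≠ ⊥ → ¬ p ∣ N.index) :
    ∃ (V H : Subgroup G) (π : G →* H), Af p V H π := by
  have h1 := H18.centralizer_pCore_le hs hO
  have h2 := H2.pCore_isPGroup p G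
  set V := pCore p G
  have hV : V.Normal := inferInstance
  obtain ⟨u, hu⟩ := exists_prime_orderOf_dvd_card' p hd
  have hu1 : u ≠ 1 := fun e => hp.out.one_lt.ne (by rw [← hu, e, orderOf_one])
  have h3 : V ≠ ⊥ := fun e => hu1 (mem_bot.1 (e ▸ h1 fun y hy => by
    rw [e] at hy
    rw [mem_bot.1 hy, one_mul, mul_one]))
  have : Nontrivial V := (nontrivial_iff_ne_bot _).2 h3
  have := h2.center_nontrivial
  obtain ⟨⟨⟨z, hz⟩, hz1⟩, hz2⟩ := exists_ne (1 : center V)
  have hz3 : z ≠ 1 := fun e => hz2 (Subtype.ext (Subtype.ext e))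
  have h4 := hN (centralizer (V : Set G)) inferInstance (h2.to_le h1) fun e => hz3 (mem_bot.1 (e ▸
    fun y hy => congrArg Subtype.val (mem_center_iff.1 hz1 ⟨y, hy⟩)))
  have h5 : centralizer (V : Set G) = V := le_antisymm h1 fun v hv => mem_of_idx _ h4 (ord h2 hv)
  have h6 := hN V hV h2 h3
  obtain ⟨n, hn⟩ := h2.exists_card_eq
  obtain ⟨H, hH⟩ := exists_right_complement'_of_coprime (N := V)
    (hn ▸ (hp.out.coprime_iff_not_dvd.2 h6).pow_left n)
  exact ⟨V, H, hH.symm.QuotientMulEquiv.toMonoidHom.comp (QuotientGroup.mk' V), hV, h2, h5, hH,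
    hH.symm.index_eq_card ▸ h6, h3, fun x hx => mem_of_idx _ h6 hx,
    Subgroup.ext fun g => (map_eq_one_iff _ hH.symm.QuotientMulEquiv.injective).trans
      (QuotientGroup.eq_one_iff g), fun h => hH.symm.QuotientMulEquiv.apply_symm_apply h⟩

namespace Af
variable {V H : Subgroup G} {π : G →* H} (h : Af p V H π)
include h

omit [Finite G] hp in
theorem comm : ∀ a ∈ V, ∀ b ∈ V, a * b = b * a := fun a ha _ hb => h.self.ge hb a ha

omit [Finite G] hp in
theorem eq_one {g : G} (hg : g ∈ H) (hc : ∀ v ∈ V, g * v * g⁻¹ = v) : g = 1 :=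
  disjoint_def.1 h.compl.disjoint
    (h.self.le fun y hy => (mul_inv_eq_iff_eq_mul.1 (hc y hy)).symm) hg

omit [Finite G] in
theorem affine (h1 : Nat.card V = p) : ∃ f : G →* affineGroup (ZMod p), Function.Injective f := by
  have := h.normal
  let e : Multiplicative (ZMod p) ≃* V := mulEquivOfPrimeCardEq (p := p) (by simp) h1
  have hm : ∀ g : G, g * (π g : G)⁻¹ ∈ V := fun g => h.ker.le (by
    rw [MonoidHom.mem_ker, map_mul, map_inv, h.res, mul_inv_cancel])
  let _ : MulAction G V :=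
    { smul := fun g v => MulAut.conjNormal g v * ⟨_, hm g⟩
      one_smul := fun v => Subtype.ext (by
        change 1 * (v : G) * 1⁻¹ * (1 * (π 1 : G)⁻¹) = v
        simp)
      mul_smul := fun g k v => Subtype.ext (by
        change g * k * (v : G) * (g * k)⁻¹ * (g * k * (π (g * k) : G)⁻¹) =
          g * (k * v * k⁻¹ * (k * (π k : G)⁻¹)) * g⁻¹ * (g * (π g : G)⁻¹)
        rw [map_mul, coe_mul]
        group) }
  let e' : V ≃ ZMod p := e.symm.toEquiv.trans Multiplicative.toAdd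
  let φ : G →* Equiv.Perm (ZMod p) := e'.permCongrHom.toMonoidHom.comp (toPermHom G V)
  have hφ : ∀ g x, φ g x = (e.symm (MulAut.conjNormal g (e (.ofAdd x)))).toAdd +
      (e.symm ⟨_, hm g⟩).toAdd := fun g x => by
    rw [← toAdd_mul, ← map_mul]
    rfl
  have hr : ∀ g, φ g ∈ affineGroup (ZMod p) := fun g => by
    let f : ZMod p →+ ZMod p := AddMonoidHom.mk'
      (fun x => (e.symm (MulAut.conjNormal g (e (.ofAdd x)))).toAdd) fun x y => by
        rw [ofAdd_add, map_mul, map_mul, map_mul, toAdd_mul]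
    have hf : ∀ x, f x = f 1 * x := fun x => by
      rw [mul_comm, ← smul_eq_mul, ← ZMod.map_smul, smul_eq_mul, mul_one]
    refine ⟨Units.mk0 (f 1) fun e0 => ?_, _, fun x => (hφ g x).trans (congrArg (· + _) (hf x))⟩
    simp [f] at e0
  have hi : Function.Injective φ := (injective_iff_map_eq_one _).2 fun g hg => by
    have h3 : ∀ v : V, g • v = v := fun v => e'.injective (by
      simpa [φ] using DFunLike.congr_fun hg (e' v))
    have h4 : g * 1 * g⁻¹ * (g * (π g : G)⁻¹) = 1 := congrArg Subtype.val (h3 1)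
    have h5 : g = π g := by simpa [mul_inv_eq_one] using h4
    refine h.eq_one (h5 ▸ (π g).2) fun v hv => ?_
    have h6 : g * v * g⁻¹ * (g * (π g : G)⁻¹) = v := congrArg Subtype.val (h3 ⟨v, hv⟩)
    rwa [← h5, mul_inv_cancel, mul_one] at h6
  exact ⟨φ.codRestrict _ hr, fun a b e => hi (congrArg Subtype.val e)⟩

end Af

theorem add2 {H V : Type u} [Group H] [AddCommGroup V] [DistribMulAction H V] [Finite V] {v₁ v₂ : V}
    (n1 : v₁ ≠ 0) (n2 : v₂ ≠ 0) (sep : ∀ g : H, g • v₁ ≠ v₂)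
    (cover : ∀ v : V, v ≠ 0 → (∃ g : H, g • v₁ = v) ∨ ∃ g : H, g • v₂ = v) :
    (stabilizer H v₁).index + (stabilizer H v₂).index + 1 = Nat.card V := by
  have h1 : orbit H v₁ ∪ orbit H v₂ = {0}ᶜ := Set.ext fun w => ⟨by
    rintro (⟨g, rfl⟩ | ⟨g, rfl⟩)
    exacts [(smul_ne_zero_iff_ne g).2 n1, (smul_ne_zero_iff_ne g).2 n2], cover w⟩
  have h2 : Disjoint (orbit H v₁) (orbit H v₂) := Set.disjoint_left.2 (by
    rintro _ ⟨g, rfl⟩ ⟨k, e⟩
    exact sep (k⁻¹ * g) (by rw [mul_smul]; exact inv_smul_eq_iff.2 e.symm))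
  rw [index_stabilizer, index_stabilizer, ← Set.ncard_union_eq h2, h1, Set.ncard_compl,
    Set.ncard_singleton]
  have := Nat.card_pos (α := V)
  omega

theorem two (T : JobT.{u}) {V H : Subgroup G} {π : G →* H} (h : Af p V H π) {x y : G} (x1 : x ≠ 1)
    (y1 : y ≠ 1) (hx : x ∈ V) (hy : y ∈ V) (hn : ¬ IsConj x y)
    (hc : ∀ w ∈ V, w ≠ 1 → IsConj x w ∨ IsConj y w) : p ≤ 2 * cls H ∨
      (Nat.card V = p ∧ 2 * Nat.card H + 1 = p ∧ Nat.card H ≤ cls H) := by
  have := h.normal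
  obtain ⟨n, hn'⟩ := h.pg.exists_card_eq
  let _ : CommGroup V := { (inferInstance : Group V) with
    mul_comm := fun a b => Subtype.ext (h.comm a a.2 b b.2) }
  let _ : DistribMulAction H (Additive V) :=
    { smul := fun g v => Additive.ofMul (MulAut.conjNormal (g : G) v.toMul)
      one_smul := fun v => congrArg Additive.ofMul (Subtype.ext (by simp; rfl))
      mul_smul := fun g h v => congrArg Additive.ofMul (Subtype.ext (by
        change ((g : G) * h) * _ * ((g : G) * h)⁻¹ = g * (h * _ * (h : G)⁻¹) * (g : G)⁻¹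
        group))
      smul_zero := fun g => congrArg Additive.ofMul (map_one _)
      smul_add := fun g v w => congrArg Additive.ofMul (map_mul _ _ _) }
  have sm : ∀ (g : H) (v w : Additive V),
      g • v = w ↔ (g : G) * v.toMul * (g : G)⁻¹ = w.toMul := fun g v w =>
    ⟨fun h => congrArg (fun u : Additive V => (u.toMul : G)) h,
      fun h => congrArg Additive.ofMul (Subtype.ext h)⟩
  have : FaithfulSMul H (Additive V) := ⟨fun {g k} e =>
    (inv_mul_eq_one.1 (Subtype.ext (h.eq_one (k⁻¹ * g).2 fun v hv =>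
      (sm (k⁻¹ * g) (Additive.ofMul ⟨v, hv⟩) (Additive.ofMul ⟨v, hv⟩)).1
        (by rw [mul_smul, e, inv_smul_smul])))).symm⟩
  have n1 : Additive.ofMul (⟨x, hx⟩ : V) ≠ 0 := fun e => x1 (congrArg Subtype.val e)
  have n2 : Additive.ofMul (⟨y, hy⟩ : V) ≠ 0 := fun e => y1 (congrArg Subtype.val e)
  have sep : ∀ g : H, g • Additive.ofMul (⟨x, hx⟩ : V) ≠ Additive.ofMul ⟨y, hy⟩ := fun g e =>
    hn (isConj_iff.2 ⟨g, (sm _ _ _).1 e⟩)
  have tr : ∀ (v : G) (hv : v ∈ V) (w : Additive V), IsConj v w.toMul →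
      ∃ g : H, g • Additive.ofMul (⟨v, hv⟩ : V) = w := fun v hv w e => by
    obtain ⟨c, e⟩ := isConj_iff.1 e
    obtain ⟨⟨a, b⟩, rfl⟩ := h.compl.2 c
    exact ⟨b, (sm _ _ _).2 ((H34.conj_V h.comm a.2 hv b).symm.trans e)⟩
  have cover : ∀ w : Additive V, w ≠ 0 → (∃ g : H, g • Additive.ofMul (⟨x, hx⟩ : V) = w) ∨
      ∃ g : H, g • Additive.ofMul (⟨y, hy⟩ : V) = w := fun w hw =>
    (hc _ w.toMul.2 fun e => hw (congrArg Additive.ofMul (Subtype.ext e))).imp (tr x hx w) (tr y hy w)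
  obtain rfl | rfl | h2 : n = 0 ∨ n = 1 ∨ 2 ≤ n := by omega
  · exact absurd (card_eq_one.1 hn') h.ne
  swap
  · exact .inl (T H (Additive V) p n _ _ ⟨hp.out, h2, hn', h.cop, n1, n2, sep, cover⟩)
  rw [pow_one] at hn'
  have st : ∀ v : Additive V, v ≠ 0 → (stabilizer H v).index = Nat.card H := fun v hv => by
    suffices e : stabilizer H v = ⊥ by rw [e, index_bot]
    refine eq_bot_iff.2 fun g (hg : g • v = v) => mem_bot.2 (Subtype.ext (h.eq_one g.2 fun w hw => ?_))
    obtain ⟨k, hk⟩ := mem_zpowers_of_prime_card (p := p) (g := v.toMul) (g' := ⟨w, hw⟩) hn' hv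
    have e : (v.toMul : G) ^ k = w := congrArg Subtype.val hk
    rw [← e, ← conj_zpow, (sm _ _ _).1 hg]
  have := add2 n1 n2 sep cover
  rw [st _ n1, st _ n2] at this
  refine .inr ⟨hn', by rw [two_mul, this]; exact hn', le_trans (le_of_eq ?_) center_le_cls⟩
  have := isCyclic_of_prime_card hn'
  suffices e : center H = ⊤ by rw [e, card_top]
  refine eq_top_iff.2 fun g _ => mem_center_iff.2 fun k => ?_
  have e := (IsCyclic.mulAutMulEquiv V).injective (a₁ := MulAut.conjNormal ((k : G) * g))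
    (a₂ := MulAut.conjNormal ((g : G) * k)) (by simp only [map_mul, mul_comm])
  exact eq_of_smul_eq_smul (α := Additive V) fun v =>
    congrArg Additive.ofMul (DFunLike.congr_fun e v.toMul)

theorem jobAff : JobAff.{u} := by
  intro T G _ _ p hp hs hO hd ⟨x₁, x₂, h3⟩ hN
  have p2 := hp.out.two_le
  by_cases hc : ∀ x y : G, x ≠ 1 → y ≠ 1 → (∃ k, orderOf x = p ^ k) → (∃ k, orderOf y = p ^ k) →
      IsConj x y
  · rcases main hs hd hc with h | ⟨h, -⟩ | ⟨h, h', -⟩ <;> left <;> omega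
  push Not at hc
  obtain ⟨x, y, x1, y1, hx, hy, hn⟩ := hc
  obtain ⟨V, H, π, h⟩ := exists_af hs hO hd hN
  have k := kp_ge π (fun x => ⟨x, h.res x⟩) h.cop ∅ (by simp)
  rw [Finset.card_empty, add_zero] at k
  rcases two T h x1 y1 (h.all x hx) (h.all y hy) hn (fun w hw w1 => by
    rcases h3 x x1 hx with a | a <;> rcases h3 y y1 hy with b | b
    · exact absurd (a.symm.trans b) hn
    · exact (h3 w w1 (ord h.pg hw)).imp a.symm.trans b.symm.trans
    · exact (h3 w w1 (ord h.pg hw)).symm.imp a.symm.trans b.symm.trans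
    · exact absurd (a.symm.trans b) hn) with h1 | ⟨h1, h2, h4⟩
  · exact .inl (h1.trans (Nat.mul_le_mul_left 2 k))
  · have := h4.trans k
    refine .inr ⟨by omega, by omega, ?_, h.affine h1⟩
    rw [← h.compl.card_mul_card, h1, mul_left_comm, show 2 * Nat.card H = p - 1 by omega]

end H45.R3A
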