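import Cfsg.Agent.H52.RCSpec
/-! RC tower: the configuration of the case `a = 1`. -/
set_option autoImplicit false
namespace H45.RCB
open H52.RC Subgroup
universe u

theorem jobB1 : JobB1.{u} := by
  intro ka _ lz hyp yy lw G _ _ m L hL st v sg hv hn
  obtain ⟨-, k2, -, -, k5, -, k7, k8, k9⟩ := ka G
  unfold NRO at hn
  push Not at hn
  obtain ⟨x, hx, g, hg, xo, gi, x1⟩ := hn
  obtain ⟨k, -, s2, si⟩ := k2 g
  have sx := si x gi
  have hs := pow_mem hg k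
  generalize g ^ k = s at s2 sx hs
  obtain ⟨l1, -, -, l4⟩ := lz G m L st
  obtain ⟨v2', -, cv, -, -, l5, l6, -⟩ := l4 v sg.rg
  have cl := (yy G m L st v).1 sg
  have wv := lw G m L st v x sg.rg cl xo ⟨s, sx⟩ ((l5 x hx.1).2.2.2.2 xo)
  obtain ⟨P, p1, p2, p3⟩ := k7 (Ct L v) (zpowers s) ((k5 _).2 (by
    rintro _ ⟨i, rfl⟩
    obtain ⟨n, hn⟩ := s2
    exact ⟨n, by rw [← zpow_natCast, ← zpow_mul, mul_comm, zpow_mul, zpow_natCast, hn, one_zpow]⟩))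
    (zpowers_le.2 hs.1)
  have sP : s ∈ P := p1 (mem_zpowers s)
  have pP := (k5 P).1 p2.2.1
  obtain ⟨T, t1, t2, t3⟩ := cl
  have c1 := (l6 P p2).1
  have e : P ⊓ C1 v = T := eq_of_le_of_card_ge (fun y hy => t3 y hy.2 (pP y hy.1))
    (by rw [c1, ← cv]; exact (k9 _ T t2 t1).1)
  have vT : v ∈ P ⊓ C1 v := e ▸ t3 v (mem_C1.2 (Commute.refl v)) v2'
  have cx : ∀ t ∈ P ⊓ C1 v, Commute t x := fun t ht => wv.2 t (pP t ht.1) (mem_C1.1 ht.2)
  have h := hyp G m st.1 P (P ⊓ C1 v) x s p2.2.1 inf_le_left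
    (fun p hp => ⟨pow_mem hp 2, mem_C1.2 (l5 p (p2.1 hp)).2.2.1⟩)
    (fun t ht h2 => e ▸ t3 t (mem_C1.2 (ht v vT).symm) h2) xo x1 (fun t ht => cx t ht) sP sx
  rw [hv] at p3
  rw [p3, Nat.pow_le_pow_iff_right (by decide)] at h
  have n : v2 (⊤ : Subgroup G) = m + 1 := by omega
  refine ⟨n, P, x, p2.2.1, (k8 ⊤ P ((k9 ⊤ P p2.2.1 le_top).2 p3)).2.1 L
    (normalizer_eq_top L).ge le_top, vT.1, p2.1, sg.rg, hx.2, x1, wv, fun p hp hc => ?_, s, sP, hs.2, sx⟩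
  have i2 : ((P ⊓ C1 v).subgroupOf P).index = 2 := by
    have := ((P ⊓ C1 v).subgroupOf P).card_mul_index
    rw [Nat.card_congr (subgroupOfEquivOfLe inf_le_left).toEquiv, c1, p3, n, pow_succ] at this
    exact Nat.eq_of_mul_eq_mul_left (by positivity) this
  have t := (mul_mem_iff_of_index_two i2 (a := (⟨s, sP⟩ : P)⁻¹) (b := ⟨p, hp⟩)).2
    ⟨fun h => absurd (eq_one_of_inv_comm sx (cx s (inv_mem_iff.1 h)) xo) x1,
      fun h => absurd (mem_C1.1 h.2) hc⟩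
  have c := (cx (s⁻¹ * p) t).eq
  unfold H52.RC.Inv at sx ⊢
  calc p * x * p⁻¹ = s * (s⁻¹ * p * x) * p⁻¹ := by group
    _ = s * x * s⁻¹ := by rw [c]; group
    _ = _ := sx

end H45.RCB
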