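import Cfsg.Agent.H53.SimXASpec
import Cfsg.Agent.Base

/-! # S3694, chapter XA, step QF. -/

set_option autoImplicit false

namespace H45.SimXAQF

open Subgroup Cfsg H98 Matrix H0.Sim H53.XA

theorem ring_key {R : Type*} [Ring R] {f g a b : R} (fg : f * g = 0) (gf : g * f = 0)
    (a1 : (1 - f) * a = 1 - f) (a2 : a * (1 - f) = 1 - f) (b1 : (1 - g) * b = 1 - g)
    (b2 : b * (1 - g) = 1 - g) : a * b = b * a ∧ (a * b = 1 → a = 1) := by
  have l : ∀ {f a : R}, (1 - f) * a = 1 - f → f * (a - 1) = a - 1 := fun {f a} h => by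
    have : f * (a - 1) = a - 1 - ((1 - f) * a - (1 - f)) := by noncomm_ring
    rw [this, h, sub_self, sub_zero]
  have r : ∀ {f a : R}, a * (1 - f) = 1 - f → (a - 1) * f = a - 1 := fun {f a} h => by
    have : (a - 1) * f = a - 1 - (a * (1 - f) - (1 - f)) := by noncomm_ring
    rw [this, h, sub_self, sub_zero]
  have ab : (a - 1) * (b - 1) = 0 := by
    rw [← r a2, ← l b1, mul_assoc, ← mul_assoc f, fg, zero_mul, mul_zero]
  have ba : (b - 1) * (a - 1) = 0 := by
    rw [← r b2, ← l a1, mul_assoc, ← mul_assoc g, gf, zero_mul, mul_zero]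
  have e1 : a * b = a + b - 1 := by
    have : a * b = (a - 1) * (b - 1) + (a + b - 1) := by noncomm_ring
    rw [this, ab, zero_add]
  have e2 : b * a = a + b - 1 := by
    have : b * a = (b - 1) * (a - 1) + (a + b - 1) := by noncomm_ring
    rw [this, ba, zero_add]
  refine ⟨e1.trans e2.symm, fun h => ?_⟩
  rw [e1] at h
  have e3 : a - 1 = -(b - 1) := by
    have : a - 1 = (a + b - 1) - 1 - (b - 1) := by noncomm_ring
    rw [this, h]; noncomm_ring
  have e4 : a - 1 = 0 := by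
    rw [← l a1, e3, ← l b1, mul_neg, ← mul_assoc, fg, zero_mul, neg_zero]
  exact sub_eq_zero.1 e4

theorem job : JQF := by
  intro rp bk fr emb uni n F _ _ u q p Θ H Q E g b c y hy f hf
  have fq : Fq F u q := c.par.card
  obtain ⟨hE, -, hrp, -, hQ, -⟩ := rp n F u q p Θ H Q E g c.toXa
  have hf2 := Cf0.st c.toCf0 c.iv (c.QH hy) f hf
  by_contra hne
  have ne : f ≠ (y : Mt n F) * f * ((y⁻¹ : GL (Fin n) F) : Mt n F) := fun e => hne (by
    calc (y : Mt n F) * f = (y : Mt n F) * f * ((y⁻¹ : GL (Fin n) F) : Mt n F) * y := by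
          rw [mul_assoc, Units.inv_mul, mul_one]
      _ = f * y := by rw [← e])
  have o1 := (bk n F u q E fq hE).1 f hf _ hf2 ne
  have o2 := (bk n F u q E fq hE).1 _ hf2 f hf ne.symm
  obtain ⟨P, P', hP⟩ := fr n F u q b f fq hf.2.1 (c.rk f hf)
  obtain ⟨φ, hφ⟩ := emb n F u q b f P P' fq hP
  obtain ⟨w0, hw0, w1, wr⟩ := uni b F u q fq c.b2
  let x : Gam b F u q := ⟨w0, hw0.1⟩
  set w : GL (Fin n) F := (φ x : GL (Fin n) F) with hw
  have wG : w ∈ Gf u q f := (φ x).2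
  have wH : w ∈ H := c.sh f hf ⟨(hφ x).2.2 hw0, wG⟩
  have wr' : w ^ ringChar F = 1 := by
    have : x ^ ringChar F = 1 := Subtype.ext wr
    rw [hw, ← Subgroup.coe_pow, ← map_pow, this, map_one, Subgroup.coe_one]
  have w1' : w ≠ 1 := fun e => w1 (by
    have : φ x = 1 := Subtype.ext e
    exact congrArg Subtype.val ((map_eq_one_iff φ φ.injective).1 this))
  have wI := (Gf u q f).inv_mem wG
  have yy : (y : Mt n F) * ((y⁻¹ : GL (Fin n) F) : Mt n F) = 1 := Units.mul_inv y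
  have yy' : ((y⁻¹ : GL (Fin n) F) : Mt n F) * (y : Mt n F) = 1 := Units.inv_mul y
  have e1 : 1 - (y : Mt n F) * f * ((y⁻¹ : GL (Fin n) F) : Mt n F) =
      (y : Mt n F) * (1 - f) * ((y⁻¹ : GL (Fin n) F) : Mt n F) := by
    rw [mul_sub, sub_mul, mul_one, yy]
  obtain ⟨k1, k2⟩ := ring_key (a := (w : Mt n F)) (b := ((y * w⁻¹ * y⁻¹ : GL (Fin n) F) : Mt n F))
    o1 o2 wG.2.1 wG.2.2
    (by
      rw [e1, Units.val_mul, Units.val_mul]
      calc _ = (y : Mt n F) * ((1 - f) * (((y⁻¹ : GL (Fin n) F) : Mt n F) * y) *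
            ((w⁻¹ : GL (Fin n) F) : Mt n F)) * ((y⁻¹ : GL (Fin n) F) : Mt n F) := by
            simp only [mul_assoc]
        _ = _ := by rw [yy', mul_one, wI.2.1])
    (by
      rw [e1, Units.val_mul, Units.val_mul]
      calc _ = (y : Mt n F) * (((w⁻¹ : GL (Fin n) F) : Mt n F) *
            (((y⁻¹ : GL (Fin n) F) : Mt n F) * y) * (1 - f)) * ((y⁻¹ : GL (Fin n) F) : Mt n F) := by
            simp only [mul_assoc]
        _ = _ := by rw [yy', mul_one, wI.2.2])
  have cm : Commute w (y * w⁻¹ * y⁻¹) := Units.ext k1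
  have cQ : w * (y * w⁻¹ * y⁻¹) ∈ Q := by
    have := Q.mul_mem (conj_mem_of_mem_normalizer (hQ wH) hy) (Q.inv_mem hy)
    simpa only [mul_assoc] using this
  have cr : (w * (y * w⁻¹ * y⁻¹)) ^ ringChar F = 1 := by
    rw [cm.mul_pow, wr', one_mul, conj_pow, inv_pow, wr', inv_one, mul_one, mul_inv_cancel]
  have c1 : w * (y * w⁻¹ * y⁻¹) = 1 :=
    orderOf_eq_one_iff.1 (Nat.Coprime.eq_one_of_dvd (hrp _ cQ) (orderOf_dvd_of_pow_eq_one cr))
  exact w1' (Units.ext (k2 (congrArg Units.val c1)))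

end H45.SimXAQF
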