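import Cfsg.Agent.H52.SimXSSpec
import Cfsg.Agent.Base

/-! # S3694, chapter XS, step Y. -/

set_option autoImplicit false

namespace H45.SimXSY

open Subgroup Cfsg H98 Matrix H0.Sim H52.XS
open scoped commutatorElement

theorem comm_sup {G : Type*} [Group G] {Z A B : Subgroup G} (hZ : Z ≤ center G)
    (aa : ∀ a ∈ A, ∀ b ∈ A, ⁅a, b⁆ ∈ Z) (ab : ∀ a ∈ A, ∀ b ∈ B, ⁅a, b⁆ ∈ Z)
    (bb : ∀ a ∈ B, ∀ b ∈ B, ⁅a, b⁆ ∈ Z) : ∀ a ∈ A ⊔ B, ∀ b ∈ A ⊔ B, ⁅a, b⁆ ∈ Z := by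
  have hn : ∀ x : G, x ∈ normalizer (Z : Set G) := fun x =>
    le_normalizer_of_le_centralizer (H := ⊤) (fun g _ => mem_centralizer_iff.2 fun z hz =>
      (mem_center_iff.1 (hZ hz) g).symm) (mem_top x)
  have sy : ∀ a b : G, ⁅a, b⁆ ∈ Z → ⁅b, a⁆ ∈ Z := fun a b h => by
    rw [← commutatorElement_inv]
    exact Z.inv_mem h
  have h1 : A ⊔ B ≤ stab A Z := sup_le (fun x hx => ⟨hn x, fun c hc => aa c hc x hx⟩)
    fun x hx => ⟨hn x, fun c hc => ab c hc x hx⟩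
  have h2 : A ⊔ B ≤ stab B Z := sup_le (fun x hx => ⟨hn x, fun c hc => sy _ _ (ab x hx c hc)⟩)
    fun x hx => ⟨hn x, fun c hc => bb c hc x hx⟩
  have h3 : A ⊔ B ≤ stab (A ⊔ B) Z :=
    sup_le (fun x hx => ⟨hn x, fun c hc => sy _ _ ((h1 hc).2 x hx)⟩)
      fun x hx => ⟨hn x, fun c hc => sy _ _ ((h2 hc).2 x hx)⟩
  exact fun a ha b hb => (h3 hb).2 a ha

variable {n : ℕ} {F : Type} [Field F]

theorem st_iff [Fintype F] {s : GL (Fin n) F} {Y : Subgroup (GL (Fin n) F)} :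
    St s (mat Y) ↔ s ∈ normalizer (Y : Set (GL (Fin n) F)) := by
  constructor
  · intro h
    refine mem_normalizer_of_cj_le ?_
    rintro _ ⟨y, hy, rfl⟩
    obtain ⟨e, he, k⟩ := h y ⟨y, hy, rfl⟩
    have : e = (MulAut.conj s).toMonoidHom y := Units.ext (by rw [k]; rfl)
    exact this ▸ he
  · rintro h _ ⟨y, hy, rfl⟩
    exact ⟨s * y * s⁻¹, conj_mem_of_mem_normalizer h hy, rfl⟩

theorem job : JobY := by
  intro th' sq n F _ _ u q p Θ H Q E E₃ c t
  have hZ : Zg n F u q ≤ center (GL (Fin n) F) := inf_le_right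
  have h1 := comm_sup hZ (fun a ha b hb => c.cE a ha b (c.EQ hb))
    (fun a ha b hb => c.cE a ha b (t.Q3 hb)) t.cm
  refine ⟨h1, fun s hs hn => ?_⟩
  have hiv : Iv Θ (mat (E ⊔ E₃)) := fun j hj => by
    obtain ⟨-, -, -, -, -, α, hα⟩ := th' n F j
    refine (hα _).2 ?_
    rw [Subgroup.map_sup, (hα E).1 (c.ivE j hj), (hα E₃).1 (t.iv j hj)]
  obtain ⟨qs, nm, -⟩ := sq n F u q c.par
  have hns : ∃ s ∈ Sg n F u q, ¬ St s (mat (E ⊔ E₃)) := by
    by_contra k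
    push Not at k
    rcases nm (E ⊔ E₃) ((sup_le c.EQ t.Q3).trans (c.QH.trans c.HG))
      (fun s hs => st_iff.1 (k s hs)) with k1 | k1
    · exact c.ne (le_sup_left.trans k1)
    · have e : commutator (Sg n F u q) ≤ center (Sg n F u q) := by
        rw [_root_.commutator_def, commutator_le]
        intro a _ b _
        refine mem_center_iff.2 fun g => Subtype.ext ?_
        exact mem_center_iff.1 (hZ (h1 a (k1 a.2) b (k1 b.2))) g
      have e2 : center (Sg n F u q) = ⊤ := top_le_iff.1 (qs.1.commutator_eq_top.ge.trans e)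
      have := qs.2.toNontrivial
      rw [e2] at this
      exact not_subsingleton _ (QuotientGroup.subsingleton_quotient_top (G := Sg n F u q))
  have hH := c.mp _ hiv hns s hs (st_iff.2 hn)
  refine st_iff.1 fun m hm => ?_
  have := c.ivE _ (c.inn s hH) m hm
  simpa [th] using this

end H45.SimXSY
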